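import Cfsg.Agent.Lib.KT.Two
import Cfsg.Agent.Lib.Coprime.LiftIrr
import Cfsg.Agent.Lib.CharDeg.Codeg
import Cfsg.Agent.S4704
import Cfsg.Agent.S4485
import Cfsg.Agent.S0899

/-!
# Normal Sylow subgroups of transitive coprime linear groups (helper29)
-/

set_option autoImplicit false

namespace Cfsg.Lib.KT

open Subgroup Cfsg.Lib.BG Cfsg.Lib.Perm Cfsg.Lib.Char Cfsg.Lib.OddChar

section
variable {K : Type*} [Group K] [Finite K] {r : ℕ} [hr : Fact r.Prime] {χ : K → ℂ}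

theorem irr_case (h7 : 7 < r) (hχ : IsIrrCharacter K χ) (hf : ∀ g, χ g = χ 1 → g = 1)
    (hd : 2 * charDegree χ + 1 ≤ r) (h2 : ¬ r ^ 2 ∣ Nat.card K) (P : Sylow r K) (hP : ¬ (P : Subgroup K).Normal) :
    2 * charDegree χ + 1 = r ∧ 2 * (center K).index = r * (r ^ 2 - 1) := by
  have hc : Nat.card P = r := by
    obtain ⟨k, hk⟩ := P.isPGroup'.exists_card_eq
    have k2 : ¬ 2 ≤ k := fun h => h2 ((pow_dvd_pow r h).trans (hk ▸ card_subgroup_dvd_card (P : Subgroup K)))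
    have k0 : k ≠ 0 := by
      rintro rfl
      exact hP (by rw [card_eq_one.1 hk]; infer_instance)
    rw [hk, show k = 1 by omega, pow_one]
  rcases Agent.S4704.result r h7 P hc hP χ hχ hf _ rfl with ⟨⟨F, _, _, hF, ⟨e⟩⟩, h3, -⟩ | h3 | ⟨h3, -⟩
  · refine ⟨by omega, ?_⟩
    have := PSL2.card_PSL2_mul (K := F)
    rw [PSL2.gcd_two_eq_of_odd, Nat.card_eq_fintype_card (α := F), hF] at this
    · rw [index, Nat.card_congr e.toEquiv, this]
    · rw [Nat.card_eq_fintype_card, hF]; exact hr.out.odd_of_ne_two (by omega)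
  · omega
  · have h4 : 2 * (charDegree χ : ℝ) + 1 ≤ r := by exact_mod_cast hd
    have h5 : (0 : ℝ) ≤ r := Nat.cast_nonneg r
    have : Real.sqrt ((r : ℝ) + 5 / 4) < (r + 4) / 2 := (Real.sqrt_lt' (by positivity)).2 (by nlinarith)
    linarith

theorem syl_or (h7 : 7 < r) (hχ : IsCharacter K χ) (hf : ∀ g, χ g = χ 1 → g = 1)
    (hd : 2 * charDegree χ + 1 ≤ r) (h2 : ¬ r ^ 2 ∣ Nat.card K) (P : Sylow r K) : (P : Subgroup K).Normal ∨
      (2 * charDegree χ + 1 = r ∧ 2 * (center K).index = r * (r ^ 2 - 1)) := by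
  classical
  have := Fintype.ofFinite K
  refine or_iff_not_imp_left.2 fun hP => ?_
  obtain ⟨ψ, h3, h4⟩ : ∃ ψ : IrrCharacter K, mlt χ ψ ≠ 0 ∧ ¬ ((P : Subgroup K) ⊔ charKer (ψ : K → ℂ)).Normal := by
    by_contra h
    push Not at h
    let M : Subgroup K := ⨅ ψ : {ψ : IrrCharacter K // mlt χ ψ ≠ 0}, (P : Subgroup K) ⊔ charKer (ψ.1 : K → ℂ)
    have hM : IsPGroup r M := by
      obtain ⟨k, hk⟩ := P.isPGroup'.exists_card_eq
      refine fun m => ⟨k, Subtype.ext (hf _ ?_)⟩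
      rw [apply_eq_sum_mlt hχ.isGeneralizedCharacter, apply_eq_sum_mlt hχ.isGeneralizedCharacter 1]
      refine Finset.sum_congr rfl fun ψ _ => ?_
      by_cases h0 : mlt χ ψ = 0
      · simp [h0]
      have := ψ.2.isCharacter.charKer_normal
      obtain ⟨a, ha, b, hb, e⟩ := mem_sup_of_normal_right.1 (mem_iInf.1 m.2 ⟨ψ, h0⟩)
      congr 1
      rw [← ψ.2.isCharacter.mem_charKer_iff, ← QuotientGroup.eq_one_iff, SubgroupClass.coe_pow,
        QuotientGroup.mk_pow, ← e, QuotientGroup.mk_mul, (QuotientGroup.eq_one_iff b).2 hb, mul_one,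
        ← QuotientGroup.mk_pow, ← hk, show a ^ Nat.card P = 1 from
          congrArg Subtype.val (pow_card_eq_one' (x := (⟨a, ha⟩ : P))), QuotientGroup.mk_one]
    refine hP (P.is_maximal' hM (le_iInf fun _ => le_sup_left) ▸ ?_)
    exact normal_iInf_normal fun ψ => h ψ.1 ψ.2
  have := ψ.2.isCharacter.charKer_normal
  obtain ⟨ζ, z1, -, z3, z4⟩ := CharDeg.exists_faithful_deflate ψ.2
  have h5 := (mlt_ne_zero_iff hχ.isGeneralizedCharacter).1 h3
  have h6 := hχ.charDegree_le_of_constituent ψ.2 h5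
  have h7' := (irr_case h7 z1 z3 (by omega) (fun h => h2 (h.trans (card_quotient_dvd_card _)))
    (P.mapSurjective (QuotientGroup.mk'_surjective _)) fun h => h4 (by
      have := h.comap (QuotientGroup.mk' (charKer (ψ : K → ℂ)))
      rwa [Sylow.coe_mapSurjective, comap_map_eq, QuotientGroup.ker_mk'] at this)).1
  have e : χ = ψ := Induce.eq_of_constituent_of_apply_one_eq hχ ψ.2 h5 (by
    rw [hχ.apply_one_eq, ψ.2.apply_one_eq, show charDegree χ = charDegree (ψ : K → ℂ) by omega])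
  exact irr_case h7 (e ▸ ψ.2) hf hd h2 P hP

end

variable {X : Type*} [Group X] [Finite X]

namespace St
variable {p n : ℕ} [hp : Fact p.Prime] {V G A : Subgroup X} (L : St p n V G) {v x : X}
include L

theorem chi : ∃ χ : G → ℂ, IsCharacter G χ ∧ (∀ g, χ g = χ 1 → g = 1) ∧ charDegree χ = n := by
  classical
  have := Fintype.ofFinite X
  obtain ⟨χ, hχ, h⟩ := Coprime.exists_character_of_elemAb G.subtype L.elem (fun a => L.norm a.2) L.cop
  have h1 : χ 1 = n := by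
    obtain ⟨d, h1, h2⟩ := h ⊥
    rw [Coprime.classInner_one_of_forall (χ := χ) (H := ⊥) fun x hx => by rw [mem_bot.1 hx]] at h1
    rw [Subgroup.map_bot, coe_bot, centralizer_eq_top_iff_subset.2 (by simp), inf_top_eq, L.card] at h2
    rw [h1, Nat.pow_right_injective hp.out.two_le h2]
  refine ⟨χ, hχ, fun g hg => ?_, by exact_mod_cast hχ.apply_one_eq.symm.trans h1⟩
  obtain ⟨d, h2, h3⟩ := h (zpowers g)
  rw [Coprime.classInner_one_of_forall (χ := χ) (H := zpowers g) fun x hx => hχ.mem_charKer_iff.1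
    (zpowers_le.2 (hχ.mem_charKer_iff.2 hg) hx), h1, Nat.cast_inj] at h2
  rw [← h2, ← L.card] at h3
  have := inf_eq_left.1 (eq_of_le_of_card_ge inf_le_left h3.ge)
  exact Subtype.ext (L.eq_one g.2 fun v hv => (this hv g ⟨g, mem_zpowers g, rfl⟩).symm)

theorem syl_normal {s : ℕ} [hs : Fact s.Prime] (h7 : 7 < s) (h : 2 * n + 1 < s ∨ (2 * n + 1 = s ∧ p = 3))
    (P : Sylow s G) : (P : Subgroup G).Normal := by
  obtain ⟨χ, hχ, hf, hd⟩ := L.chi
  obtain ⟨m, ρ, rfl⟩ := id hχ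
  obtain rfl : m = n := by rwa [charDegree_character, Module.finrank_fin_fun] at hd
  have := L.pos
  refine Agent.S0899.result m ρ ((injective_iff_map_eq_one ρ).2 fun g hg =>
    hf g ((character_eq_character_one_iff ρ g).2 hg)) s (.inr ⟨by omega, fun K h2 Q => ?_⟩) P
  have e : charDegree (fun k : K => ρ.character k) = m := hd
  refine (syl_or h7 (hχ.restrict K) (fun g hg => Subtype.ext (hf g hg)) (by omega) h2 Q).resolve_right
    fun ⟨h3, h4⟩ => ?_
  obtain ⟨-, rfl⟩ := h.resolve_left (by omega)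
  refine L.cop (.trans ?_ ((index_dvd_card (center K)).trans (card_subgroup_dvd_card K)))
  refine Nat.Coprime.dvd_of_dvd_mul_left (by norm_num : Nat.Coprime 3 2) (h4 ▸ ?_)
  obtain ⟨t, rfl⟩ : ∃ t, s = t + 1 := ⟨s - 1, by omega⟩
  rw [show (t + 1) ^ 2 - 1 = t * (t + 2) from Nat.sub_eq_of_eq_add (by ring)]
  obtain ⟨k, rfl | rfl | rfl⟩ : ∃ k, t = 3 * k ∨ t = 3 * k + 1 ∨ t = 3 * k + 2 := ⟨t / 3, by omega⟩
  · exact ⟨(3 * k + 1) * (k * (3 * k + 2)), by ring⟩
  · exact ⟨(3 * k + 2) * ((3 * k + 1) * (k + 1)), by ring⟩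
  · exact ⟨(k + 1) * ((3 * k + 2) * (3 * k + 4)), by ring⟩

omit hp L in
theorem cent_syl {s : ℕ} [hs : Fact s.Prime] (P : Sylow s G) (hP : (P : Subgroup G).Normal) (hd : s ∣ Nat.card G) :
    ∃ Z ≤ G, G ≤ 𝐍(Z) ∧ IsMulCommutative Z ∧ IsPGroup s Z ∧ Z ≠ ⊥ := by
  have h1 : IsPGroup s ((P : Subgroup G).map G.subtype) := P.isPGroup'.map _
  have h2 := Core.le_normalizer_map_subtype (P : Subgroup G)
  exact ⟨_, inf_le_left.trans (map_subtype_le _), Coprime.le_normalizer_inf h2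
    (Coprime.le_normalizer_centralizer h2), PGroup.isMulCommutative_inf_centralizer _, h1.to_inf_left,
    PGroup.inf_centralizer_ne_bot h1 h1 le_normalizer
      ((map_eq_bot_iff_of_injective _ G.subtype_injective).not.2 (P.ne_bot_of_dvd_card hd))⟩

variable {r : ℕ} [hr' : Fact r.Prime] (hr : orderOf (p : ZMod r) = n)
include hr

omit L in
theorem prim_dvd : r ∣ p ^ n - 1 := by
  rw [← Nat.modEq_iff_dvd' (Nat.one_le_pow _ _ hp.out.pos), ← ZMod.natCast_eq_natCast_iff,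
    Nat.cast_pow, ← hr, pow_orderOf_eq_one, Nat.cast_one]

theorem eq_or_eq {W : Subgroup X} (hW : W ≤ V) (h : Nat.card W ≡ 1 [MOD r]) : W = ⊥ ∨ W = V := by
  by_contra hc
  obtain ⟨i, i0, hi, e⟩ := L.card_sub hW (not_or.1 hc).1 (not_or.1 hc).2
  refine absurd (Nat.le_of_dvd i0 ?_) (not_le.2 hi)
  rw [← hr, orderOf_dvd_iff_pow_eq_one, ← Nat.cast_pow, ← e, ← Nat.cast_one, ZMod.natCast_eq_natCast_iff]
  exact h

theorem irr_prim (h : A ≤ G) (hA : IsPGroup r A) (h0 : A ≠ ⊥) : Irr V A := fun W hW hn => by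
  have h1 : V ⊓ 𝐂(A) = ⊥ := by
    refine (L.eq_or_eq hr inf_le_left ?_).resolve_right fun e =>
      h0 (L.eq_bot h (le_centralizer_iff.1 (inf_eq_left.1 e)))
    refine (Transfer.card_modEq_card_inf_centralizer hA (h.trans L.norm)).symm.trans ?_
    rw [L.card, ← ZMod.natCast_eq_natCast_iff, Nat.cast_pow, ← hr, pow_orderOf_eq_one, Nat.cast_one]
  refine L.eq_or_eq hr hW ?_
  have := Transfer.card_modEq_card_inf_centralizer hA hn
  rwa [le_bot_iff.1 (h1 ▸ inf_le_inf_right _ hW : W ⊓ 𝐂(A) ≤ ⊥), card_bot] at this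

theorem good_of_syl (P : Sylow r G) (hP : (P : Subgroup G).Normal) : Good V G := by
  obtain ⟨Z, h1, h2, h3, h4, h5⟩ := cent_syl P hP ((prim_dvd hr).trans L.dvd)
  exact ⟨Z, h1, h2, h3, L.irr_prim hr h1 h4 h5⟩

theorem good_of_sq (h2 : 2 ≤ n) (h : r ^ 2 ∣ Nat.card G) : Good V G := by
  obtain ⟨P⟩ : Nonempty (Sylow r G) := inferInstance
  obtain ⟨χ, hχ, hf, hd⟩ := L.chi
  obtain ⟨k, hk⟩ := P.isPGroup'.exists_card_eq
  have key : ∀ x ∈ (P : Subgroup G), x ≠ 1 → ∀ a ∈ 𝐂[x], ∀ b ∈ 𝐂[x], a * b = b * a := by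
    intro x hx h1 a ha b hb
    have h3 : zpowers (x : X) ≤ G := zpowers_le.2 x.2
    have := L.comm_cent h3 inferInstance (L.irr_prim hr h3 ((P.isPGroup'.map G.subtype).to_le
      (zpowers_le.2 ⟨x, hx, rfl⟩)) fun e => h1 (Subtype.ext (zpowers_eq_bot.1 e)))
    have m : ∀ a ∈ 𝐂[x], (a : X) ∈ G ⊓ 𝐂(zpowers (x : X)) := fun a ha => ⟨a.2, by
      rw [zpowers_eq_closure, centralizer_closure]
      exact mem_centralizer_singleton_iff.2 (congrArg Subtype.val (mem_centralizer_singleton_iff.1 ha))⟩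
    exact Subtype.ext (setLike_mul_comm (m a ha) (m b hb))
  have hd' := (dvd_pow_self r two_ne_zero).trans h
  obtain ⟨⟨z, hz, hz'⟩, z1⟩ := ne_bot_iff_exists_ne_one.1 (PGroup.inf_centralizer_ne_bot P.isPGroup' P.isPGroup'
    le_normalizer (P.ne_bot_of_dvd_card hd'))
  have cm := fun a ha b hb => key z hz (fun e => z1 (Subtype.ext e)) a
    (mem_centralizer_singleton_iff.2 (hz' a ha)) b (mem_centralizer_singleton_iff.2 (hz' b hb))
  refine L.good_of_syl hr P (Agent.S4485.result r hr'.out hd' P (fun x hx h1 => le_antisymm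
    (fun c hc y hy => key x hx h1 y (mem_centralizer_singleton_iff.2 (cm y hy x hx)) c hc)
    (centralizer_le (Set.singleton_subset_iff.2 hx))) k hk χ hχ hf ?_)
  have k2 : r ^ 2 ≤ r ^ k := hk ▸ Nat.le_of_dvd Nat.card_pos (P.pow_dvd_card_of_pow_dvd_card h)
  have hn : n ∣ r - 1 := by
    have : (p : ZMod r) ≠ 0 := fun e => by
      have := pow_orderOf_eq_one (p : ZMod r)
      rw [hr, e, zero_pow L.pos.ne'] at this
      exact zero_ne_one this
    exact hr ▸ orderOf_dvd_of_pow_eq_one (ZMod.pow_card_sub_one_eq_one this)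
  have := hr'.out.two_le
  have := Nat.le_of_dvd (by omega) hn
  rw [hd]
  nlinarith [Nat.pow_le_pow_left (show n + 1 ≤ r by omega) 2]

end St

end Cfsg.Lib.KT
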