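import Cfsg.Agent.Lib.PGroup.Basic
import Cfsg.Agent.Lib.BG.Defs

/-!
# Counting conjugacy classes through commuting pairs (helper29)
-/

set_option autoImplicit false

namespace Cfsg.Lib.KT

open Subgroup Cfsg.Lib.BG Finset

/-- The class number. -/
noncomputable abbrev kk (G : Type*) [Group G] : ℕ := Nat.card (ConjClasses G)

variable {X : Type*} [Group X] {G T N A B V : Subgroup X}

theorem kk_le_card (Y : Type*) [Group Y] [Finite Y] : kk Y ≤ Nat.card Y :=
  Nat.card_le_card_of_surjective _ ConjClasses.mk_surjective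

theorem kk_le_ker {Y Z : Type*} [Group Y] [Finite Y] [Group Z] [Finite Z] {f : Y →* Z}
    (hf : Function.Surjective f) : kk Y ≤ Nat.card f.ker * kk Z := by
  rw [← Nat.card_prod]
  refine Nat.card_le_card_of_surjective
    (fun a => ConjClasses.mk (a.1.1 * Function.surjInv hf a.2.out)) fun C => ?_
  obtain ⟨g, rfl⟩ := ConjClasses.mk_surjective C
  obtain ⟨c, hc⟩ := isConj_iff.1 (ConjClasses.mk_eq_mk_iff_isConj.1
    (Quotient.out_eq (ConjClasses.mk (f g))).symm)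
  obtain ⟨c, rfl⟩ := hf c
  refine ⟨⟨⟨c * g * c⁻¹ * (Function.surjInv hf (ConjClasses.mk (f g)).out)⁻¹, ?_⟩,
    ConjClasses.mk (f g)⟩, ?_⟩
  · simp [MonoidHom.mem_ker, Function.surjInv_eq hf, ← hc]
  · simp only [inv_mul_cancel_right]
    exact ConjClasses.mk_eq_mk_iff_isConj.2 (isConj_iff.2 ⟨c, rfl⟩).symm

theorem kk_A4 : kk (alternatingGroup (Fin 4)) = 4 := by
  have h := card_comm_eq_card_conjClasses_mul_card (alternatingGroup (Fin 4))
  have h1 : Nat.card {p : alternatingGroup (Fin 4) × alternatingGroup (Fin 4) //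
      Commute p.1 p.2} = 48 := by
    change Nat.card {p : alternatingGroup (Fin 4) × alternatingGroup (Fin 4) //
      p.1 * p.2 = p.2 * p.1} = 48
    rw [Nat.card_eq_fintype_card]
    decide +kernel
  rw [h1, alternatingGroup.card_of_card_eq_four (by simp)] at h
  unfold kk
  omega

theorem kk_S4 : kk (Equiv.Perm (Fin 4)) = 5 := by
  rw [kk, Nat.card_eq_fintype_card]
  decide +kernel

theorem kk_A5 : kk (alternatingGroup (Fin 5)) = 5 := by
  have h := card_comm_eq_card_conjClasses_mul_card (alternatingGroup (Fin 5))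
  have h1 : Nat.card {p : alternatingGroup (Fin 5) × alternatingGroup (Fin 5) //
      Commute p.1 p.2} = 300 := by
    change Nat.card {p : alternatingGroup (Fin 5) × alternatingGroup (Fin 5) //
      p.1 * p.2 = p.2 * p.1} = 300
    rw [Nat.card_eq_fintype_card]
    decide +kernel
  have h2 : Nat.card (alternatingGroup (Fin 5)) = 60 := by
    rw [nat_card_alternatingGroup]; simp [Nat.factorial]
  rw [h1, h2] at h
  unfold kk
  omega

section
variable [Fintype X]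
open Classical

theorem card_eq_sum (A : Subgroup X) : Nat.card A = ∑ x with x ∈ A, 1 := by
  rw [Nat.card_eq_fintype_card, Fintype.card_subtype, card_eq_sum_ones]

theorem card_inf_eq_sum (B : Subgroup X) (x : X) :
    Nat.card ↥(B ⊓ 𝐂[x]) = ∑ y with y ∈ B, if y * x = x * y then 1 else 0 := by
  rw [card_eq_sum, ← sum_filter, filter_filter]
  simp only [Subgroup.mem_inf, mem_centralizer_singleton_iff]

theorem sum_swap (A B : Subgroup X) :
    ∑ x with x ∈ A, Nat.card ↥(B ⊓ 𝐂[x]) = ∑ y with y ∈ B, Nat.card ↥(A ⊓ 𝐂[y]) := by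
  simp only [card_inf_eq_sum]
  rw [sum_comm]
  exact sum_congr rfl fun y _ => sum_congr rfl fun x _ => by simp only [eq_comm]

theorem kk_mul (G : Subgroup X) : kk G * Nat.card G = ∑ x with x ∈ G, Nat.card ↥(G ⊓ 𝐂[x]) := by
  rw [← card_comm_eq_card_conjClasses_mul_card, sum_subtype (p := (· ∈ G)) _ (by simp),
    ← Nat.card_sigma]
  exact Nat.card_congr
    { toFun := fun a => ⟨a.1.1, a.1.2, a.1.2.2,
        mem_centralizer_singleton_iff.2 (congrArg Subtype.val a.2.eq).symm⟩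
      invFun := fun a => ⟨(a.1, ⟨a.2, a.2.2.1⟩),
        Subtype.ext (mem_centralizer_singleton_iff.1 a.2.2.2).symm⟩
      left_inv := fun _ => rfl
      right_inv := fun _ => rfl }

theorem sum_split (h : T ≤ G) (f : X → ℕ) :
    ∑ x with x ∈ G, f x = ∑ x with x ∈ T, f x + ∑ x with x ∈ G ∧ x ∉ T, f x := by
  rw [← sum_filter_add_sum_filter_not (univ.filter (· ∈ G)) (· ∈ T), filter_filter, filter_filter]
  congr 2
  exact filter_congr fun x _ => and_iff_right_of_imp fun hx => h hx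

theorem sum_le_of (h : T ≤ G) {f : X → ℕ} {c : ℕ} (hf : ∀ x ∈ G, x ∉ T → f x ≤ c) :
    ∑ x with x ∈ G ∧ x ∉ T, f x ≤ (Nat.card G - Nat.card T) * c := by
  have := sum_split h fun _ => 1
  rw [← card_eq_sum, ← card_eq_sum] at this
  rw [this, Nat.add_sub_cancel_left, sum_mul]
  exact sum_le_sum fun x hx => by
    rw [one_mul]; exact hf x (mem_filter.1 hx).2.1 (mem_filter.1 hx).2.2

theorem sum_le_of' {f : X → ℕ} {c : ℕ} (hf : ∀ x ∈ T, f x ≤ c) :
    ∑ x with x ∈ T, f x ≤ Nat.card T * c := by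
  rw [card_eq_sum, sum_mul]
  exact sum_le_sum fun x hx => by rw [one_mul]; exact hf x (mem_filter.1 hx).2

end

variable [Finite X]

theorem card_inf_le (h : T ≤ G) (C : Subgroup X) :
    Nat.card ↥(G ⊓ C) ≤ T.relIndex G * Nat.card ↥(T ⊓ C) := by
  rw [← PGroup.card_inf_mul_relIndex T (G ⊓ C), ← inf_assoc, inf_eq_left.2 h, mul_comm]
  exact Nat.mul_le_mul_right _ (relIndex_le_of_le_right inf_le_left index_ne_zero_of_finite)

theorem kk_le_relIndex (h : N ≤ G) : kk G ≤ N.relIndex G * kk N := by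
  classical
  have := Fintype.ofFinite X
  refine Nat.le_of_mul_le_mul_right ?_ (Nat.card_pos (α := G))
  calc kk G * Nat.card G = _ := kk_mul G
    _ ≤ ∑ x with x ∈ G, N.relIndex G * Nat.card ↥(N ⊓ 𝐂[x]) := sum_le_sum fun x _ => card_inf_le h _
    _ = N.relIndex G * ∑ x with x ∈ N, Nat.card ↥(G ⊓ 𝐂[x]) := by rw [← mul_sum, sum_swap]
    _ ≤ N.relIndex G * ∑ x with x ∈ N, N.relIndex G * Nat.card ↥(N ⊓ 𝐂[x]) :=
      Nat.mul_le_mul_left _ (sum_le_sum fun x _ => card_inf_le h _)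
    _ = _ := by rw [← mul_sum, ← kk_mul, ← PGroup.card_mul_relIndex h]; ring

/-- The class number of a group with a large abelian subgroup. -/
theorem kk_abel (h : T ≤ G) {c : ℕ} (hc : ∀ g ∈ G, g ∉ T → Nat.card ↥(T ⊓ 𝐂[g]) ≤ c) :
    T.relIndex G * kk G + c ≤ Nat.card T + T.relIndex G ^ 2 * c := by
  classical
  have := Fintype.ofFinite X
  have h1 := kk_mul G
  rw [sum_split h, sum_swap T G, sum_split h] at h1
  have h2 := sum_le_of' (T := T) (f := fun x => Nat.card ↥(T ⊓ 𝐂[x])) (c := Nat.card T)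
    fun x _ => card_le_of_le inf_le_left
  have h3 := sum_le_of h hc
  have h4 := sum_le_of h (f := fun x => Nat.card ↥(G ⊓ 𝐂[x])) (c := T.relIndex G * c)
    fun x hx hx' => (card_inf_le h _).trans (Nat.mul_le_mul_left _ (hc x hx hx'))
  have h5 := PGroup.card_mul_relIndex h
  obtain ⟨m, hm⟩ : ∃ m, T.relIndex G = m + 1 :=
    Nat.exists_eq_succ_of_ne_zero index_ne_zero_of_finite
  rw [hm] at h4 h5 ⊢
  rw [← h5, mul_add, mul_one, Nat.add_sub_cancel] at h3 h4
  rw [← h5] at h1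
  refine Nat.le_of_mul_le_mul_right ?_ (Nat.card_pos (α := T))
  nlinarith

/-- An element of a coset of an abelian normal subgroup of coprime exponent is conjugate to a commuting product. -/
theorem exists_conj_comm {p : ℕ} (hV : IsElementaryAbelian p V) {g u : X} (hg : g ∈ 𝐍(V))
    (hc : (orderOf g).Coprime p) (hu : u ∈ V) :
    ∃ w ∈ V, u * (w * (g * w⁻¹ * g⁻¹)) ∈ 𝐂[g] := by
  have cm : ∀ a ∈ V, ∀ b ∈ V, a * b = b * a := fun a ha b hb =>
    have := hV.1; setLike_mul_comm ha hb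
  have cj : ∀ a ∈ V, g * a * g⁻¹ ∈ V := fun a ha => (mem_normalizer_iff.1 hg a).1 ha
  let φ : V →* V := MonoidHom.mk' (fun w => ⟨w * (g * w⁻¹ * g⁻¹), V.mul_mem w.2 (cj _ (V.inv_mem w.2))⟩)
    fun a b => Subtype.ext (by
      have := cm _ (cj _ (V.inv_mem a.2)) _ (V.mul_mem b.2 (cj _ (V.inv_mem b.2)))
      change (a : X) * b * (g * (a * b : X)⁻¹ * g⁻¹) =
        a * (g * (a : X)⁻¹ * g⁻¹) * (b * (g * (b : X)⁻¹ * g⁻¹))
      rw [mul_assoc (a : X) (g * _ * _), this]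
      group)
  have hφ : ∀ w : V, (φ w : X) = w * (g * (w : X)⁻¹ * g⁻¹) := fun _ => rfl
  have ker : ∀ w : V, φ w = 1 ↔ (w : X) ∈ 𝐂[g] := fun w => by
    rw [Subtype.ext_iff, hφ, mem_centralizer_singleton_iff, OneMemClass.coe_one]
    constructor
    · intro h
      calc (w : X) * g = w * (g * (w : X)⁻¹ * g⁻¹) * (g * w) := by group
        _ = _ := by rw [h, one_mul]
    · intro h
      rw [← mul_assoc, ← mul_assoc, h]; group
  have k2 : (φ.comp φ).ker = φ.ker := by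
    refine le_antisymm (fun w hw => ?_) fun w hw => by
      rw [MonoidHom.mem_ker] at hw ⊢; rw [MonoidHom.comp_apply, hw, map_one]
    have h1 : Commute (φ w : X) g := mem_centralizer_singleton_iff.1 ((ker _).1 hw)
    have h2 : ∀ k : ℕ, g ^ k * (w : X)⁻¹ = (w : X)⁻¹ * (φ w : X) ^ k * g ^ k := fun k => by
      induction k with
      | zero => simp
      | succ k ih =>
        calc g ^ (k + 1) * (w : X)⁻¹ = g * (g ^ k * (w : X)⁻¹) := by group
          _ = (w : X)⁻¹ * (w * (g * (w : X)⁻¹ * g⁻¹)) * (g * (φ w : X) ^ k) * g ^ k := by rw [ih]; group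
          _ = _ := by rw [← hφ, ← (h1.pow_left k).eq]; group
    have h3 := h2 (orderOf g)
    rw [pow_orderOf_eq_one, one_mul, mul_one, left_eq_mul] at h3
    exact Subtype.ext (orderOf_eq_one_iff.1 (Nat.eq_one_of_dvd_coprimes hc
      (orderOf_dvd_of_pow_eq_one h3) (orderOf_dvd_of_pow_eq_one (hV.2 _ (φ w).2))))
  have r2 : (φ.comp φ).range = φ.range := eq_of_le_of_card_ge
    (by rintro _ ⟨w, rfl⟩; exact ⟨_, rfl⟩) (by rw [← index_ker, ← index_ker, k2])
  obtain ⟨w, hw⟩ := r2.ge (⟨⟨u, hu⟩⁻¹, rfl⟩ : φ ⟨u, hu⟩⁻¹ ∈ φ.range)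
  refine ⟨w, w.2, (ker (⟨u, hu⟩ * φ w)).1 ?_⟩
  rw [map_mul, ← MonoidHom.comp_apply φ φ, hw, ← map_mul, mul_inv_cancel, map_one]

/-- The class number of the affine group of a transitive linear group. -/
theorem kk_le_add {p : ℕ} (hp : p.Prime) (hV : IsElementaryAbelian p V) [V.Normal] (hGV : IsComplement' V G)
    (hc : ¬ p ∣ Nat.card G) {v : X} (hv : v ∈ V)
    (tr : ∀ w ∈ V, w ≠ 1 → ∃ g ∈ G, g * w * g⁻¹ = v) : kk X ≤ kk G + kk ↥(G ⊓ 𝐂[v]) := by
  rw [← Nat.card_sum]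
  refine Nat.card_le_card_of_surjective
    (Sum.elim (fun C => ConjClasses.mk (C.out : X)) fun C => ConjClasses.mk (v * C.out)) fun C => ?_
  obtain ⟨x, rfl⟩ := ConjClasses.mk_surjective C
  obtain ⟨⟨⟨u, hu⟩, g, hg⟩, rfl⟩ := (hGV.existsUnique x).exists
  obtain ⟨w, hw, h⟩ := exists_conj_comm hV (g := g) (normalizer_eq_top V ▸ mem_top g)
    (Nat.Coprime.coprime_dvd_left (orderOf_dvd_natCard G hg) ((hp.coprime_iff_not_dvd.2 hc).symm)) hu
  set u' := u * (w * (g * w⁻¹ * g⁻¹)) with hu'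
  have e : IsConj (u' * g) (u * g) := isConj_iff.2 ⟨w⁻¹, by
    have := hV.1
    rw [hu', ← mul_assoc u, setLike_mul_comm hu hw]; group⟩
  have out : ∀ {Y : Subgroup X} (y : Y), ∃ c ∈ Y, c * ((ConjClasses.mk y).out : Y) * c⁻¹ = y := fun y => by
    obtain ⟨c, hc⟩ := isConj_iff.1 (Quotient.mk_out (s := IsConj.setoid _) y)
    exact ⟨c, c.2, congrArg Subtype.val hc⟩
  by_cases h1 : u' = 1
  · obtain ⟨c, -, hc⟩ := out (⟨g, hg⟩ : G)
    refine ⟨.inl (.mk ⟨g, hg⟩), ConjClasses.mk_eq_mk_iff_isConj.2 (.trans (isConj_iff.2 ⟨c, hc⟩) ?_)⟩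
    rwa [h1, one_mul] at e
  obtain ⟨y, hy, e'⟩ := tr u' (V.mul_mem hu (V.mul_mem hw
    (Normal.conj_mem inferInstance _ (V.inv_mem hw) g))) h1
  have hm : y * g * y⁻¹ ∈ G ⊓ 𝐂[v] := ⟨G.mul_mem (G.mul_mem hy hg) (G.inv_mem hy), by
    have := mem_centralizer_singleton_iff.1 h
    refine mem_centralizer_singleton_iff.2 ?_
    calc y * g * y⁻¹ * v = y * (g * u') * y⁻¹ := by rw [← e']; group
      _ = _ := by rw [← this, ← e']; group⟩
  obtain ⟨c, hc, hc'⟩ := out (⟨_, hm⟩ : ↥(G ⊓ 𝐂[v]))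
  refine ⟨.inr (.mk ⟨_, hm⟩), ConjClasses.mk_eq_mk_iff_isConj.2 (.trans (isConj_iff.2 ⟨y⁻¹ * c, ?_⟩) e)⟩
  have := mem_centralizer_singleton_iff.1 hc.2
  change y⁻¹ * c * (v * ((ConjClasses.mk (⟨_, hm⟩ : ↥(G ⊓ 𝐂[v]))).out : ↥(G ⊓ 𝐂[v]))) * _ = _
  generalize (((ConjClasses.mk (⟨_, hm⟩ : ↥(G ⊓ 𝐂[v]))).out : ↥(G ⊓ 𝐂[v])) : X) = o at hc' ⊢
  replace hc' : c * o * c⁻¹ = y * g * y⁻¹ := hc'
  calc _ = y⁻¹ * (c * v * c⁻¹ * (c * o * c⁻¹)) * y := by group
    _ = _ := by rw [hc', this, ← e']; group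

end Cfsg.Lib.KT
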