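import Cfsg.Agent.Lib.KT.Gen
import Cfsg.Agent.Lib.BG.T01_Cyclic
import Cfsg.Agent.Lib.Char.Burnside
import Cfsg.Agent.Lib.Coprime.Nilpotent

/-!
# Transitive coprime subgroups of `GL₄(3)` (helper29)
-/

set_option autoImplicit false

namespace Cfsg.Lib.KT

open Subgroup Cfsg.Lib.BG Cfsg.Lib.Perm
open scoped commutatorElement

theorem card_dvd_twenty {K : Type*} [Group K] [Finite K] [Group.IsSolvable K] (h : Nat.card K ∣ 2 ^ 9 * 5)
    (h2 : pCore 2 K = ⊥) : Nat.card K ∣ 20 := by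
  have : Fact (Nat.Prime 5) := ⟨Nat.prime_five⟩
  have h1 : Nat.card (fittingSubgroup K) ∣ 5 := (((Core.pPrimeCore_coprime (p := 2) (G := K)).coprime_dvd_left
    (card_dvd_of_le (Core.fittingSubgroup_le_pPrimeCore h2))).pow_right 9).dvd_of_dvd_mul_left
      ((card_subgroup_dvd_card _).trans h)
  have hC := Core.centralizer_fittingSubgroup_le (G := K)
  have h3 := index_dvd_of_le hC
  rw [← card_mul_index (fittingSubgroup K)]
  rcases (Nat.dvd_prime Nat.prime_five).1 h1 with e | e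
  · rw [e, index_eq_one.2 (top_le_iff.1 ((le_centralizer_iff.1 ((card_eq_one.1 e).le.trans bot_le)).trans hC))]
    norm_num
  · have h4 := index_cent_prime_dvd (A := ⊤) e le_normalizer_of_normal
    rw [relIndex_top_right] at h4
    rw [e]
    exact Nat.mul_dvd_mul_left 5 (h3.trans h4)

variable {X : Type*} [Group X] [Finite X]

namespace St
variable {p n : ℕ} [hp : Fact p.Prime] {V G A : Subgroup X} {v x : X}

theorem cyc (L : St p n V G) (hA : A ≤ G) (hc : IsMulCommutative A) (hi : Irr V A) : IsCyclic A := by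
  obtain ⟨F, _, _, f, ψ, h⟩ := L.coord hA hc hi
  refine isCyclic_of_injective h.psiHom ((MonoidHom.ker_eq_bot_iff _).1 ?_)
  rw [h.ker_psiHom, eq_bot_iff]
  exact fun t ht => Subtype.ext (L.eq_one (hA t.2) ht)

omit hp in
theorem four_dvd (L : St 3 4 V G) : Nat.card G ∣ 2 ^ 9 * 5 := by
  have : Fact (Nat.Prime 3) := ⟨Nat.prime_three⟩
  have : Fact (Nat.Prime 13) := ⟨by norm_num⟩
  have hGL : Nat.card G ∣ 3 ^ 6 * (13 * (2 ^ 9 * 5)) := by
    have := PGroup.relIndex_commStab_dvd_card_GL (S := ⊥) (V := V) (A := G) (p := 3) (n := 4) bot_le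
      (commutator_eq_bot_iff_le_centralizer.2 (le_centralizer_iff_isMulCommutative.2 L.elem.1)).le
      L.elem.2 le_normalizer_of_normal L.norm (by rw [relIndex_bot_left, L.card])
    rw [PGroup.commStab_bot, ← inf_relIndex_left, L.faith, relIndex_bot_left, PGroup.card_GL_zmod] at this
    simpa [Fin.prod_univ_four] using this
  refine ((Nat.Prime.coprime_iff_not_dvd (by norm_num)).2 fun hd => ?_).symm.dvd_of_dvd_mul_left
    ((((Nat.Prime.coprime_iff_not_dvd Nat.prime_three).2 L.cop).symm.pow_right 6).dvd_of_dvd_mul_left hGL)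
  obtain ⟨P⟩ : Nonempty (Sylow 13 G) := inferInstance
  obtain ⟨Z, z1, z2, z3, z4, z5⟩ := cent_syl P (L.syl_normal (by norm_num) (by norm_num) P) hd
  have h1 := (z4.card_eq_or_dvd.resolve_left (by rwa [card_eq_one])).trans
    (L.sreg_dvd z1 z2 z3 le_rfl (z1.trans L.norm))
  rw [L.card] at h1
  exact absurd h1 (by norm_num)

omit hp in
theorem four (L : St 3 4 V G) (hv : v ∈ V) (h1 : v ≠ 1) : Good V G ∨ kk G + Nat.card ↥(G ⊓ 𝐂[v]) < 3 ^ 4 := by
  have : Fact (Nat.Prime 3) := ⟨Nat.prime_three⟩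
  have : Fact (Nat.Prime 5) := ⟨Nat.prime_five⟩
  refine or_iff_not_imp_left.2 fun hG => ?_
  have hd := L.four_dvd
  have hs : Group.IsSolvable G := Char.isSolvable_of_forall_prime_dvd G 2 5 fun r hr h =>
    ((Nat.Prime.dvd_mul hr).1 (h.trans hd)).imp (fun h => (Nat.prime_dvd_prime_iff_eq hr Nat.prime_two).1
      (hr.dvd_of_dvd_pow h)) (Nat.prime_dvd_prime_iff_eq hr Nat.prime_five).1
  have L' := L.lin hs
  have hr : orderOf ((3 : ℕ) : ZMod 5) = 4 := (orderOf_eq_iff (by norm_num)).2 (by decide +revert)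
  have h0 : (pCore 5 G).map G.subtype = ⊥ := by_contra fun h => hG (L'.good_of_pCore hr h)
  obtain ⟨E, hE⟩ : ∃ E, E = (pCore 2 G).map G.subtype := ⟨_, rfl⟩
  have e1 : E ≤ G := hE ▸ map_subtype_le _
  have e2 : G ≤ 𝐍(E) := hE ▸ Core.le_normalizer_pCoreOf 2 G
  have e3 : IsPGroup 2 E := hE ▸ Core.pCoreOf_isPGroup 2 G
  have c5 : ∀ {y : X}, orderOf y = 5 → Nat.card (zpowers y) = 5 := fun oy => by rw [Nat.card_zpowers, oy]
  have p5 : ∀ {y : X}, orderOf y = 5 → IsPGroup 5 (zpowers y) := fun oy => IsPGroup.of_card (n := 1) (c5 oy)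
  have key : ∀ y ∈ G, orderOf y = 5 → 𝐂((⁅E, zpowers y⁆ : Subgroup X)).relIndex ⁅E, zpowers y⁆ = 16 := by
    intro y hy oy
    obtain ⟨-, d, -, h2, h3, -⟩ := L'.fermat_aux hr (by norm_num) h0 (c5 oy) le_rfl (zpowers_le.2 hy) inferInstance
      (p5 oy) fun z hz hz1 => (eq_of_le_of_card_ge (zpowers_le.2 hz) (((Nat.dvd_prime Nat.prime_five).1
        (c5 oy ▸ card_dvd_of_le (zpowers_le.2 hz))).resolve_left (by rwa [card_eq_one, zpowers_eq_bot]) ▸
          (c5 oy).le)).ge
    rw [c5 oy] at h3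
    rw [hE, ← h2, show d = 4 by omega]; rfl
  have small : ∀ y ∈ G, orderOf y = 5 → Nat.card ↥(E ⊓ 𝐂(zpowers y)) ≤ 2 := by
    intro y hy oy
    have y1 : zpowers y ≤ G := zpowers_le.2 hy
    have y3 := L.irr_prim hr y1 (p5 oy) (by rw [ne_eq, ← card_eq_one, c5 oy]; norm_num)
    have t1 := L.comm_cent y1 inferInstance y3
    have t2 := y3.mono (le_inf y1 (le_centralizer_iff_isMulCommutative.2 inferInstance))
    have := L.cyc inf_le_left t1 t2
    obtain ⟨⟨t, ht⟩, ot⟩ := (isCyclic_of_le (inf_le_inf_right 𝐂(zpowers y) e1)).exists_ofOrder_eq_natCard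
    rw [← orderOf_coe] at ot
    obtain ⟨k, hk⟩ := (e3.to_inf_left (K := 𝐂(zpowers y))).exists_card_eq
    by_contra hc
    have k2 : 2 ^ 2 ≤ 2 ^ k := Nat.pow_le_pow_right two_pos (by
      by_contra h
      have := Nat.pow_le_pow_right two_pos (show k ≤ 1 by omega)
      omega)
    obtain ⟨D, d1, d2, d3, -, d4⟩ := L.two_cent' inf_le_left t1 t2 (x := t) ⟨e1 ht.1, ht.2⟩
      (lt_of_lt_of_le (by norm_num) (Nat.pow_le_pow_left (show 5 ≤ _ by simp only at ot; omega) 3))
    have yD : y ∈ D := mem_of_cop d2 ⟨hy, mem_centralizer_singleton_iff.2 (ht.2 y (mem_zpowers y))⟩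
      (oy ▸ pow_orderOf_eq_one y) (Nat.Coprime.coprime_dvd_right (d4 rfl) (by norm_num))
    have hC := Coprime.p_times_q (e3.to_le (zpowers_le.2 ht.1)) (by rw [c5 oy]; norm_num) e3 (zpowers_le.2 ht.2)
      ((zpowers_le.2 ht.1).trans le_normalizer) (y1.trans e2) fun e he => by
        have c1 : e * y * e⁻¹ ∈ D := (mem_normalizer_iff.1 (d2 ⟨e1 he.1, mem_centralizer_singleton_iff.2
          (he.2 t (mem_zpowers t)).symm⟩) y).1 yD
        have c2 : e * y * e⁻¹ * y⁻¹ ∈ E := by
          simpa [mul_assoc] using E.mul_mem he.1 ((mem_normalizer_iff.1 (e2 hy) _).1 (E.inv_mem he.1))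
        obtain ⟨j, hj⟩ := e3 ⟨_, c2⟩
        have c3 : orderOf (e * y * e⁻¹ * y⁻¹) = 1 := Nat.eq_one_of_dvd_coprimes
          ((by norm_num : Nat.Coprime 5 2).pow_right j) (orderOf_dvd_of_pow_eq_one (by
            rw [Commute.mul_pow (setLike_mul_comm c1 (D.inv_mem yD)), conj_pow, inv_pow, ← oy,
              pow_orderOf_eq_one]; simp)) (orderOf_dvd_of_pow_eq_one (congrArg Subtype.val hj))
        rw [orderOf_eq_one_iff, mul_inv_eq_one, mul_inv_eq_iff_eq_mul] at c3
        rw [zpowers_eq_closure, centralizer_closure]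
        exact mem_centralizer_singleton_iff.2 c3
    have := key y hy oy
    rw [commutator_eq_bot_iff_le_centralizer.2 (le_centralizer_iff.1 hC), relIndex_bot_right] at this
    omega
  obtain ⟨y, hy, oy⟩ := Core.exists_mem_orderOf_eq_prime Nat.prime_five ((prim_dvd hr).trans L.dvd)
  have y1 : zpowers y ≤ G := zpowers_le.2 hy
  have cop : (Nat.card (zpowers y)).Coprime (Nat.card E) :=
    IsPGroup.coprime_card_of_ne 5 2 (by norm_num) _ _ (p5 oy) e3
  have c32 : Nat.card E ≤ 32 := by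
    have q1 := Coprime.commutator_sup_centralizer (y1.trans e2) cop (.inl (Core.isSolvable_of_isPGroup (p5 oy)))
    have q2 := key y hy oy
    have q3 := Coprime.commutator_le_of_le_normalizer (y1.trans e2)
    have q4 : zpowers y ≤ 𝐍((⁅E, zpowers y⁆ : Subgroup X)) := Coprime.le_normalizer_commutator (y1.trans e2)
      le_normalizer
    generalize ⁅E, zpowers y⁆ = Q at *
    have q5 : Q ⊓ 𝐂(Q) ≤ E ⊓ 𝐂(zpowers y) := le_inf (inf_le_left.trans q3) (L'.le_centralizer_of_prim hr y1 (c5 oy)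
      (inf_le_left.trans (q3.trans e1)) (Coprime.le_normalizer_inf q4 (Coprime.le_normalizer_centralizer q4))
      Nat.prime_two (by norm_num) (by norm_num) (e3.to_le (inf_le_left.trans q3))
      fun _ => PGroup.isMulCommutative_inf_centralizer _)
    have q6 := (one_lt_card_iff_ne_bot _).2 (PGroup.inf_centralizer_ne_bot (e3.to_le q3) (e3.to_le q3)
      le_normalizer (by rintro rfl; simp at q2))
    have q7 := eq_of_le_of_card_ge q5 ((small y hy oy).trans q6)
    rw [← q7, sup_eq_left.2 inf_le_left] at q1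
    have q8 := PGroup.card_inf_mul_relIndex 𝐂(Q) Q
    have := small y hy oy
    rw [← q7, inf_comm] at this
    rw [← q1, ← q8, q2]
    omega
  have c20 : E.relIndex G ∣ 20 := by
    rw [hE, relIndex, subgroupOf, comap_map_eq_self_of_injective G.subtype_injective, index]
    exact card_dvd_twenty ((card_quotient_dvd_card _).trans hd) (Core.pCore_quotient_pCore 2 G)
  have n1 : E ⊔ zpowers y ≤ G := sup_le e1 y1
  have n5 : E.relIndex (E ⊔ zpowers y) = 5 := by
    have h2 := Coprime.card_sup_of_disjoint (y1.trans e2) (inf_eq_bot_of_coprime cop.symm)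
    have h3 := PGroup.card_inf_mul_relIndex E (E ⊔ zpowers y)
    rw [inf_eq_left.2 le_sup_left, h2, c5 oy] at h3
    exact Nat.eq_of_mul_eq_mul_left Nat.card_pos h3
  have k1 := kk_abel (T := E) (G := E ⊔ zpowers y) le_sup_left (c := 2) fun g hg hg' => by
    have h5 : 5 ∣ orderOf g := by_contra fun h => hg' (mem_of_cop (n1.trans e2) hg (pow_orderOf_eq_one g)
      (n5 ▸ ((Nat.Prime.coprime_iff_not_dvd Nat.prime_five).2 h).symm))
    refine (card_le_of_le (inf_le_inf_left E ?_)).trans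
      (small _ (G.pow_mem (n1 hg) _) (orderOf_pow_orderOf_div (orderOf_pos g).ne' h5))
    rw [← centralizer_closure, ← zpowers_eq_closure]
    exact centralizer_le (zpowers_le.2 (pow_mem (mem_zpowers g) _))
  have k2 := kk_le_relIndex n1
  have k3 := relIndex_mul_relIndex E _ G le_sup_left n1
  have k4 := L.card_eq hv h1
  have k5 := PGroup.card_inf_mul_relIndex E G
  rw [inf_eq_left.2 e1, ← k3, ← k4] at k5
  rw [← k3] at c20
  rw [n5] at k1 k5 c20
  have := Nat.le_of_dvd (by norm_num) c20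
  have k6 := k2.trans (Nat.mul_le_mul_left _ (show _ ≤ 16 by omega))
  have k7 := k5.ge.trans (Nat.mul_le_mul_right _ c32)
  omega

end St

end Cfsg.Lib.KT
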