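import Cfsg.Agent.Lib.KT.Chr
import Cfsg.Agent.S3430

/-!
# Transitive coprime linear groups with a large primitive prime divisor (helper29)
-/

set_option autoImplicit false

namespace Cfsg.Lib.KT

open Subgroup Cfsg.Lib.BG Cfsg.Lib.Perm Cfsg.Lib.Char

theorem num_psl {p n a : ℕ} (h5 : 5 ≤ p) (h4 : 4 ≤ n) (ha : a ∣ n) (h0 : 0 < a) (h1 : a < n) :
    ¬ p ^ n - 1 ∣ (p ^ a - 1) * (n * (2 * n + 1) * (2 * n + 2)) := fun h => by
  obtain ⟨c, rfl⟩ := Nat.exists_eq_add_of_le h1.le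
  have ac : a ≤ c := Nat.le_of_dvd (by omega) ((Nat.dvd_add_right dvd_rfl).1 ha)
  have pa : 1 < p ^ a := Nat.one_lt_pow h0.ne' (by omega)
  have pc : 1 ≤ p ^ c := Nat.one_le_pow _ _ (by omega)
  have h2 : p ^ c ≤ (a + c) * (2 * (a + c) + 1) * (2 * (a + c) + 2) := by
    refine Nat.le_of_mul_le_mul_left (.trans ?_ (Nat.le_of_dvd (Nat.mul_pos (by omega) (by positivity)) h))
      (show 0 < p ^ a - 1 by omega)
    rw [Nat.sub_mul, one_mul, pow_add]
    omega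
  have h3 : ∀ k, 2 * (k + 6) * (4 * (k + 6) + 1) * (4 * (k + 6) + 2) < 5 ^ (k + 6) := fun k => by
    induction k with
    | zero => norm_num
    | succ k ih =>
      rw [show k + 1 + 6 = k + 6 + 1 by ring, pow_succ 5]
      nlinarith [Nat.zero_le (k ^ 3), Nat.zero_le (k ^ 2)]
  have c5 : c ≤ 5 := by
    by_contra hc
    obtain ⟨k, rfl⟩ := Nat.exists_eq_add_of_le' (show 6 ≤ c by omega)
    refine absurd (((Nat.pow_le_pow_left h5 _).trans h2).trans ?_) (not_le.2 (h3 k))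
    exact Nat.mul_le_mul (Nat.mul_le_mul (by omega) (by omega)) (by omega)
  have p68 : p < 68 := by
    by_contra hp
    have h6 := ((Nat.pow_le_pow_left (not_lt.1 hp) 2).trans (Nat.pow_le_pow_right (by omega)
      (show 2 ≤ c by omega))).trans (h2.trans (Nat.mul_le_mul (Nat.mul_le_mul (show _ ≤ 10 by omega)
        (show _ ≤ 21 by omega)) (show _ ≤ 22 by omega)))
    omega
  have key : ∀ c a : Fin 6, ∀ p : Fin 68, (decide (5 ≤ p.1) && decide (4 ≤ a.1 + c.1) && (a.1 + c.1) % a.1 == 0 &&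
      decide (0 < a.1) && decide (a.1 ≤ c.1) && (p.1 ^ a.1 - 1) * ((a.1 + c.1) * (2 * (a.1 + c.1) + 1) *
        (2 * (a.1 + c.1) + 2)) % (p.1 ^ (a.1 + c.1) - 1) == 0) = false := by decide +kernel
  have := key ⟨c, by omega⟩ ⟨a, by omega⟩ ⟨p, p68⟩
  simp only [h5, h4, Nat.mod_eq_zero_of_dvd ha, h0, ac, Nat.mod_eq_zero_of_dvd h] at this
  exact absurd this (by decide)

theorem num_three {p : ℕ} (hp : p.Prime) (h2 : p ≠ 2) :
    ∃ r, r.Prime ∧ orderOf (p : ZMod r) = 3 ∧ (7 < r ∨ r ^ 2 ∣ p ^ 3 - 1) := by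
  have e : p ^ 3 - 1 = (p - 1) * (p ^ 2 + p + 1) := by
    obtain ⟨q, rfl⟩ := Nat.exists_eq_add_of_le' hp.one_le
    exact Nat.sub_eq_of_eq_add (by rw [Nat.add_sub_cancel]; ring)
  have ord : ∀ r, r.Prime → r ∣ p ^ 2 + p + 1 → r ≠ 3 → orderOf (p : ZMod r) = 3 := fun r hr hd h3 => by
    have := Fact.mk hr
    have h0 : (p : ZMod r) ^ 2 + p + 1 = 0 := by exact_mod_cast (ZMod.natCast_eq_zero_iff _ r).2 hd
    refine orderOf_eq_prime (by linear_combination (p - 1 : ZMod r) * h0) fun h1 => h3 ?_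
    rw [h1] at h0
    exact (Nat.prime_dvd_prime_iff_eq hr Nat.prime_three).1 ((ZMod.natCast_eq_zero_iff 3 r).1
      (by rw [← h0]; norm_num))
  by_contra h
  push Not at h
  have md : ∀ m, 0 < m → (∀ x < m, ¬ m ∣ x ^ 2 + x + 1) → ¬ m ∣ p ^ 2 + p + 1 := fun m h0 hm hd =>
    hm (p % m) (Nat.mod_lt _ h0) (((((Nat.mod_modEq p m).pow 2).add (Nat.mod_modEq p m)).add_right 1).dvd_iff
      dvd_rfl |>.2 hd)
  have h37 : ∀ r, r.Prime → r ∣ p ^ 2 + p + 1 → r = 3 ∨ r = 7 := fun r hr hd => by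
    by_contra h3
    have h7 := (h r hr (ord r hr hd (not_or.1 h3).1)).1
    have := md 2 two_pos (by decide)
    have := md 5 (by norm_num) (by decide)
    interval_cases r <;> simp_all (config := { decide := true })
  have : p ^ 2 + p + 1 ∣ 21 := (Nat.dvd_iff_prime_pow_dvd_dvd _ _).2 fun r k hr hd => by
    rcases k with _ | _ | k
    · simp
    · rcases h37 r hr (by simpa using hd) with rfl | rfl <;> norm_num
    have h3 : r ^ 2 ∣ p ^ 2 + p + 1 := (pow_dvd_pow r (by omega)).trans hd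
    rcases h37 r hr ((dvd_pow_self r two_ne_zero).trans h3) with rfl | rfl
    · exact absurd h3 (md 9 (by norm_num) (by decide))
    · exact absurd (e ▸ h3.mul_left _) (h 7 hr (ord 7 hr ((dvd_pow_self 7 two_ne_zero).trans h3) (by norm_num))).2
  have h4 := Nat.le_of_dvd (by norm_num) this
  have : p ≤ 4 := by nlinarith
  interval_cases p <;> simp_all (config := { decide := true })

theorem num_big {p n : ℕ} (hp : p.Prime) (h2 : p ≠ 2) (h4 : 4 ≤ n) (h3 : ¬ (p = 3 ∧ (n = 4 ∨ n = 6)))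
    (h5 : ¬ (p = 5 ∧ n = 6)) : ∃ r, r.Prime ∧ orderOf (p : ZMod r) = n ∧ (2 * n + 1 ≤ r ∨ r ^ 2 ∣ p ^ n - 1) := by
  obtain ⟨r, hr, h6, h7, h8⟩ := Agent.S3430.result p n hp.two_le (by omega) (by omega) (fun h => h2 h.1) h3 h5
  have := Fact.mk hr
  have e : ∀ i, (p : ZMod r) ^ i = 1 ↔ r ∣ p ^ i - 1 := fun i => by
    rw [← Nat.modEq_iff_dvd' (Nat.one_le_pow _ _ hp.pos), ← ZMod.natCast_eq_natCast_iff, Nat.cast_pow,
      Nat.cast_one, eq_comm]
  have ho : orderOf (p : ZMod r) = n :=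
    (orderOf_eq_iff (by omega)).2 ⟨(e n).2 h6, fun i hi h0 h => h7 i h0 hi ((e i).1 h)⟩
  refine ⟨r, hr, ho, h8.imp_left fun h => ?_⟩
  obtain ⟨k, hk⟩ : n ∣ r - 1 := ho ▸ ZMod.orderOf_dvd_card_sub_one fun e0 => by
    have := (e n).2 h6
    rw [e0, zero_pow (by omega)] at this
    exact zero_ne_one this
  rcases k with _ | _ | k
  · omega
  · omega
  · have : r - 1 = 2 * n + n * k := by rw [hk]; ring
    omega

variable {X : Type*} [Group X] [Finite X]

theorem mem_of_cop {D C : Subgroup X} (hn : C ≤ 𝐍(D)) {c : X} (hc : c ∈ C) {r : ℕ} (h1 : c ^ r = 1)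
    (h : r.Coprime (D.relIndex C)) : c ∈ D := by
  have := normal_subgroupOf_of_le_normalizer hn
  have h2 : orderOf ((⟨c, hc⟩ : C) : C ⧸ D.subgroupOf C) = 1 := Nat.eq_one_of_dvd_coprimes h
    (orderOf_dvd_of_pow_eq_one (by rw [← QuotientGroup.mk_pow, show (⟨c, hc⟩ : C) ^ r = 1 from Subtype.ext h1,
      QuotientGroup.mk_one])) (orderOf_dvd_natCard _)
  exact (QuotientGroup.eq_one_iff (N := D.subgroupOf C) (⟨c, hc⟩ : C)).1 (orderOf_eq_one_iff.1 h2)

namespace St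
variable {p n : ℕ} [hp : Fact p.Prime] {V G A : Subgroup X} (L : St p n V G) {v x : X}
include L

theorem good_of_big {r : ℕ} [hr' : Fact r.Prime] (hr : orderOf (p : ZMod r) = n) (h2 : p ≠ 2) (h7 : 7 < r)
    (hn : 2 * n + 1 ≤ r) : Good V G := by
  obtain ⟨P⟩ : Nonempty (Sylow r G) := inferInstance
  by_cases h : 2 * n + 1 < r ∨ (2 * n + 1 = r ∧ p = 3)
  · exact L.good_of_syl hr P (L.syl_normal h7 h P)
  obtain rfl : 2 * n + 1 = r := by omega
  by_cases hsq : (2 * n + 1) ^ 2 ∣ Nat.card G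
  · exact L.good_of_sq hr (by omega) hsq
  obtain ⟨χ, hχ, hf, hd⟩ := L.chi
  rcases syl_or h7 hχ hf (by omega) hsq P with h3 | ⟨-, h3⟩
  · exact L.good_of_syl hr P h3
  have hZ := Core.le_normalizer_map_subtype (center G)
  refine ⟨_, map_subtype_le _, hZ, inferInstance, fun W hW hn' => by_contra fun hc => ?_⟩
  obtain ⟨i, i0, hi, e⟩ := L.card_sub hW (not_or.1 hc).1 (not_or.1 hc).2
  have h4 := L.sreg_dvd (map_subtype_le _) hZ inferInstance hW hn'
  have h5 := L.sreg_dvd (map_subtype_le _) hZ inferInstance le_rfl ((map_subtype_le _).trans L.norm)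
  rw [card_subtype, e] at h4
  rw [card_subtype, L.card] at h5
  have h6 := Nat.dvd_gcd h4 h5
  rw [Nat.pow_sub_one_gcd_pow_sub_one] at h6
  have p5 : 5 ≤ p := by
    have := hp.out.two_le
    have : p ≠ 4 := by rintro rfl; exact absurd hp.out (by norm_num)
    omega
  refine num_psl p5 (by omega) (Nat.gcd_dvd_right i n) (Nat.gcd_pos_of_pos_left _ i0)
    ((Nat.gcd_le_left _ i0).trans_lt hi) (L.dvd.trans ?_)
  rw [← card_mul_index (center G), show (center G).index = n * (2 * n + 1) * (2 * n + 2) from ?_]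
  · exact Nat.mul_dvd_mul_right h6 _
  refine Nat.eq_of_mul_eq_mul_left two_pos (h3.trans ?_)
  rw [show (2 * n + 1) ^ 2 - 1 = 2 * n * (2 * n + 2) from Nat.sub_eq_of_eq_add (by ring)]
  ring

theorem two_cent' (hA : A ≤ G) (hc : IsMulCommutative A) (hi : Irr V A) (hx : x ∈ A)
    (ho : p ^ n < (orderOf x + 1) ^ 3) : ∃ D ≤ G ⊓ 𝐂[x], G ⊓ 𝐂[x] ≤ 𝐍(D) ∧ IsMulCommutative D ∧
      D.relIndex (G ⊓ 𝐂[x]) ∣ 120 ∧ (p = 3 → D.relIndex (G ⊓ 𝐂[x]) ∣ 2) := by
  rcases L.two_cent hA hc hi hx ho with ⟨D, hD, h3, h4⟩ | ⟨D, hD, h3, h4⟩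
  · refine ⟨D, hD, ?_, h4, h3.trans (by norm_num), fun _ => h3⟩
    rw [← normal_subgroupOf_iff_le_normalizer hD]
    rcases (Nat.dvd_prime Nat.prime_two).1 h3 with h | h
    · rw [index_eq_one.1 h]; infer_instance
    · exact normal_of_index_eq_two h
  · refine ⟨D, hD, (le_centralizer_iff.1 h3).trans (centralizer_le_normalizer _),
      le_centralizer_iff_isMulCommutative.1 (h3.trans (centralizer_le hD)), ?_, ?_⟩
    · rcases h4 with h | h | h <;> rw [h] <;> norm_num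
    rintro rfl
    refine absurd (.trans ?_ ((Subgroup.relIndex_dvd_card D (G ⊓ 𝐂[x])).trans (card_dvd_of_le inf_le_left))) L.cop
    rcases h4 with h | h | h <;> rw [h] <;> norm_num

omit L in
theorem good_six (L : St p 6 V G) {s : ℕ} (h : (p = 3 ∧ s = 13) ∨ (p = 5 ∧ s = 31)) : Good V G := by
  have : Fact (Nat.Prime 7) := ⟨Nat.prime_seven⟩
  obtain ⟨hs, h7, h8, h9, h10, h11, h12, hr⟩ : s.Prime ∧ 7 < s ∧ (2 * 6 + 1 < s ∨ (2 * 6 + 1 = s ∧ p = 3)) ∧
      s ∣ p ^ 6 - 1 ∧ ¬ s ^ 2 ∣ p ^ 6 - 1 ∧ ¬ s ≡ 1 [MOD 7] ∧ p ^ 6 < (s + 1) ^ 3 ∧ orderOf (p : ZMod 7) = 6 := by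
    rcases h with ⟨rfl, rfl⟩ | ⟨rfl, rfl⟩ <;>
      refine ⟨by norm_num, by norm_num, by norm_num, by norm_num, by norm_num, by decide, by norm_num,
        (orderOf_eq_iff (by norm_num)).2 (by decide +revert)⟩
  have := Fact.mk hs
  obtain ⟨P⟩ : Nonempty (Sylow s G) := inferInstance
  obtain ⟨Z, z1, z2, z3, z4, z5⟩ := cent_syl P (L.syl_normal h7 h8 P) (h9.trans L.dvd)
  have hZ : Nat.card Z = s := by
    have h1 := L.sreg_dvd z1 z2 z3 le_rfl (z1.trans L.norm)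
    obtain ⟨k, hk⟩ := z4.exists_card_eq
    rw [L.card, hk] at h1
    have k2 : ¬ 2 ≤ k := fun h => h10 ((pow_dvd_pow s h).trans h1)
    have k0 : k ≠ 0 := by rintro rfl; exact z5 (card_eq_one.1 hk)
    rw [hk, show k = 1 by omega, pow_one]
  obtain ⟨x, hx, ox⟩ := Core.exists_mem_orderOf_eq_prime hs (hZ ▸ dvd_rfl : s ∣ Nat.card Z)
  obtain rfl : zpowers x = Z := eq_of_le_of_card_ge (zpowers_le.2 hx) (by rw [Nat.card_zpowers, ox, hZ])
  obtain ⟨y, hy, oy⟩ := Core.exists_mem_orderOf_eq_prime Nat.prime_seven ((prim_dvd hr).trans L.dvd)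
  have y1 : zpowers y ≤ G := zpowers_le.2 hy
  have y2 : IsPGroup 7 (zpowers y) := IsPGroup.of_card (n := 1) (by rw [Nat.card_zpowers, oy]; rfl)
  have y3 := L.irr_prim hr y1 y2 (by rw [ne_eq, zpowers_eq_bot]; rintro rfl; simp at oy)
  have xy : zpowers x ≤ 𝐂(zpowers y) := by
    have h1 := Transfer.card_modEq_card_inf_centralizer y2 (y1.trans z2)
    rcases (Nat.dvd_prime hs).1 (hZ ▸ card_dvd_of_le (inf_le_left : zpowers x ⊓ 𝐂(zpowers y) ≤ _)) with e | e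
    · rw [e, hZ] at h1; exact absurd h1 h11
    · exact inf_eq_left.1 (eq_of_le_of_card_ge inf_le_left (by rw [e, hZ]))
  obtain ⟨D, d1, d2, d3, d4, -⟩ := L.two_cent' inf_le_left (L.comm_cent y1 inferInstance y3)
    (y3.mono (le_inf y1 (le_centralizer_iff_isMulCommutative.2 inferInstance))) (x := x)
    ⟨z1 hx, xy hx⟩ (ox ▸ h12)
  have hC : G ≤ 𝐍(G ⊓ 𝐂[x]) := by
    rw [← centralizer_closure, ← zpowers_eq_closure]
    exact Coprime.le_normalizer_inf le_normalizer (Coprime.le_normalizer_centralizer z2)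
  refine ⟨omegaOne 7 (G ⊓ 𝐂[x]), (PGroup.omegaOne_le _).trans inf_le_left,
    hC.trans (PGroup.normalizer_le_normalizer_omegaOne _), PGroup.isMulCommutative_of_le
      (PGroup.omegaOne_le_iff.2 fun c hc h1 => mem_of_cop d2 hc h1
        (Nat.Coprime.coprime_dvd_right d4 (by norm_num))) d3,
    y3.mono (zpowers_le.2 (PGroup.mem_omegaOne ⟨hy, mem_centralizer_singleton_iff.2 (xy hx y (mem_zpowers y))⟩
      (oy ▸ pow_orderOf_eq_one y)))⟩

end St

end Cfsg.Lib.KT
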