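import Cfsg.Agent.Lib.KT.Four
import Cfsg.Agent.S0205

/-!
# Transitive coprime linear groups: the class number bound (helper29)
-/

set_option autoImplicit false

namespace Cfsg.Lib.KT

open Subgroup Cfsg.Lib.BG Cfsg.Lib.Perm

variable {X : Type*} [Group X] [Finite X] {p n : ℕ} [hp : Fact p.Prime] {V G : Subgroup X} {v : X}

theorem St.good_or (L : St p n V G) (hv : v ∈ V) (h1 : v ≠ 1) :
    Good V G ∨ kk G + Nat.card ↥(G ⊓ 𝐂[v]) < p ^ n := by
  by_cases h2 : p = 2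
  · subst h2
    refine .inl (((L.lin (Agent.S0205.result (Nat.odd_iff.2 (Nat.two_dvd_ne_zero.1 L.cop)))).huppert
      L.tr).resolve_right fun h => ?_)
    have : 2 ∣ 2 ^ n := dvd_pow_self 2 L.pos.ne'
    simp only [Set.mem_insert_iff, Set.mem_singleton_iff] at h
    omega
  have h0 := L.pos
  by_cases n1 : n = 1
  · subst n1
    refine .inl ⟨⊥, bot_le, le_normalizer_of_normal, inferInstance, fun W hW _ => by_contra fun h => ?_⟩
    obtain ⟨i, _, _, -⟩ := L.card_sub hW (not_or.1 h).1 (not_or.1 h).2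
    omega
  by_cases n2 : n = 2
  · subst n2; exact L.dim_two hv h1
  by_cases n3 : n = 3
  · subst n3
    obtain ⟨r, hr, ho, h⟩ := num_three hp.out h2
    have := Fact.mk hr
    exact .inl (h.elim (fun h => L.good_of_big ho h2 h (by omega)) fun h => L.good_of_sq ho (by omega) (h.trans L.dvd))
  by_cases a : p = 3 ∧ n = 4
  · obtain ⟨rfl, rfl⟩ := a; exact L.four hv h1
  by_cases b : p = 3 ∧ n = 6
  · obtain ⟨rfl, rfl⟩ := b; exact .inl (L.good_six (.inl ⟨rfl, rfl⟩))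
  by_cases c : p = 5 ∧ n = 6
  · obtain ⟨rfl, rfl⟩ := c; exact .inl (L.good_six (.inr ⟨rfl, rfl⟩))
  obtain ⟨r, hr, ho, h⟩ := num_big (n := n) hp.out h2 (by omega) (by omega) c
  have := Fact.mk hr
  exact .inl (h.elim (fun h => L.good_of_big ho h2 (by omega) h) fun h => L.good_of_sq ho (by omega) (h.trans L.dvd))

theorem St.bound (L : St p n V G) (hv : v ∈ V) (h1 : v ≠ 1) :
    kk G + Nat.card ↥(G ⊓ 𝐂[v]) ≤ p ^ n ∧ (kk G + Nat.card ↥(G ⊓ 𝐂[v]) = p ^ n →
      IsCyclic G ∨ (p ^ n = 8 ∧ Nat.card G = 21) ∨ (p ^ n = 9 ∧ Nat.card G = 16)) :=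
  (L.good_or hv h1).elim (fun h => L.good_bound h hv h1) fun h => ⟨h.le, fun e => absurd e h.ne⟩

end Cfsg.Lib.KT
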