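import Cfsg.Agent.Lib.KT.Cnt
import Cfsg.Agent.Lib.Perm.Huppert3
import Cfsg.Agent.Lib.Frobenius.Basic

/-!
# Coprime linear groups transitive on non-zero vectors: the semilinear case (helper29)
-/

set_option autoImplicit false

namespace Cfsg.Lib.KT

open Subgroup Cfsg.Lib.BG Cfsg.Lib.Perm

variable {X : Type*} [Group X]

/-- `G` is a `p'`-group acting faithfully on the elementary abelian group `V` of order `p ^ n`, transitively on
the non-identity elements. -/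
structure St (p n : ℕ) (V G : Subgroup X) : Prop where
  elem : IsElementaryAbelian p V
  card : Nat.card V = p ^ n
  pos : 0 < n
  norm : G ≤ 𝐍(V)
  faith : G ⊓ 𝐂(V) = ⊥
  cop : ¬ p ∣ Nat.card G
  tr : ∀ v ∈ V, ∀ w ∈ V, v ≠ 1 → w ≠ 1 → ∃ g ∈ G, g * v * g⁻¹ = w

/-- `A` is irreducible on `V`. -/
def Irr (V A : Subgroup X) : Prop := ∀ W : Subgroup X, W ≤ V → A ≤ 𝐍(W) → W = ⊥ ∨ W = V

theorem Irr.mono {V A B : Subgroup X} (h : Irr V A) (hAB : A ≤ B) : Irr V B :=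
  fun W hW hn => h W hW (hAB.trans hn)

theorem finite_aut (F : Type*) [Field F] [Finite F] : Finite (F ≃+* F) :=
  Finite.of_injective (fun σ : F ≃+* F => (σ : F → F)) DFunLike.coe_injective

theorem card_fixed {F : Type*} [Field F] [Finite F] (H : Subgroup (F ≃+* F)) :
    Nat.card F = Nat.card (FixedPoints.subfield H F) ^ Nat.card H := by
  have := finite_aut F
  have := Fintype.ofFinite H
  rw [Nat.card_eq_fintype_card (α := H), ← FixedPoints.finrank_eq_card _ F,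
    Module.natCard_eq_pow_finrank (K := FixedPoints.subfield H F)]

theorem num_semi {p n m s : ℕ} (hp : p.Prime) (hm : 2 ≤ m) (hmn : m ≤ n) (hpm : ¬ p ∣ m) {d : ℕ} (hd : 2 ≤ d)
    (hpd : ¬ p ∣ d) (hs : s ^ d ≤ p ^ n) : (m + 1) * s < p ^ n ∨
      ((m + 1) * s = p ^ n ∧ (p ^ n = 8 ∧ m = 3 ∨ p ^ n = 9 ∧ m = 2)) := by
  have key : ∀ {e : ℕ}, e + 1 ≤ d → (m + 1) ^ (e + 1) < (p ^ n) ^ e → (m + 1) * s < p ^ n := fun {e} he h => by
    refine lt_of_pow_lt_pow_left₀ (e + 1) (Nat.zero_le _) ?_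
    rcases Nat.eq_zero_or_pos s with rfl | h0
    · simpa using pow_pos (pow_pos hp.pos n) (e + 1)
    rw [mul_pow, pow_succ (p ^ n)]
    exact Nat.mul_lt_mul_of_lt_of_le h ((Nat.pow_le_pow_right h0 he).trans hs) (pow_pos hp.pos n)
  have b3 : ∀ k, (k + 3 + 1) ^ 2 < 3 ^ (k + 3) := fun k => by
    induction k with
    | zero => norm_num
    | succ k ih => rw [show k + 1 + 3 = k + 3 + 1 by ring, pow_succ 3]; nlinarith
  have b2 : ∀ k, (k + 4 + 1) ^ 3 < (2 ^ (k + 4)) ^ 2 := fun k => by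
    induction k with
    | zero => norm_num
    | succ k ih =>
      rw [show k + 1 + 4 = k + 4 + 1 by ring, pow_succ 2, mul_pow]
      nlinarith [Nat.zero_le (k ^ 3), Nat.zero_le (k ^ 2)]
  rcases hp.eq_two_or_odd' with rfl | ho
  · have d3 : 3 ≤ d := by omega
    by_cases h4 : 4 ≤ n
    · obtain ⟨k, rfl⟩ := Nat.exists_eq_add_of_le' h4
      exact .inl (key d3 ((Nat.pow_le_pow_left (by omega) 3).trans_lt (b2 k)))
    obtain rfl : n = 3 := by omega
    obtain rfl : m = 3 := by omega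
    have : s ≤ 2 := by
      by_contra h
      have := (Nat.pow_le_pow_left (show 3 ≤ s by omega) d).trans hs
      have := Nat.pow_le_pow_right (show 0 < 3 by norm_num) d3
      omega
    omega
  have p3 : 3 ≤ p := by have := hp.two_le; obtain ⟨k, rfl⟩ := ho; omega
  by_cases h3 : 3 ≤ n
  · obtain ⟨k, rfl⟩ := Nat.exists_eq_add_of_le' h3
    exact .inl (key hd (((Nat.pow_le_pow_left (by omega) 2).trans_lt (b3 k)).trans_le
      (by rw [pow_one]; exact Nat.pow_le_pow_left p3 _)))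
  obtain rfl : n = 2 := by omega
  obtain rfl : m = 2 := by omega
  have : s ≤ p := by
    by_contra h
    have h1 := (Nat.pow_le_pow_right (show 0 < s by omega) hd).trans hs
    have := Nat.pow_lt_pow_left (not_le.1 h) two_ne_zero
    omega
  rcases p3.eq_or_lt with rfl | p4
  · omega
  · left; nlinarith

namespace St
variable [Finite X] {p n : ℕ} [hp : Fact p.Prime] {V G A : Subgroup X} (L : St p n V G) {v : X}
include L

omit [Finite X] in
theorem ne_bot : V ≠ ⊥ := fun h => by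
  have := L.card
  rw [h, card_bot] at this
  exact (Nat.one_lt_pow L.pos.ne' hp.out.one_lt).ne this

omit [Finite X] hp in
theorem eq_one {g : X} (h : g ∈ G) (hc : g ∈ 𝐂(V)) : g = 1 := mem_bot.1 (L.faith ▸ ⟨h, hc⟩)

omit [Finite X] hp in
theorem eq_bot (h : A ≤ G) (hc : A ≤ 𝐂(V)) : A = ⊥ := le_bot_iff.1 (L.faith ▸ le_inf h hc)

omit [Finite X] hp in
theorem cj {g : X} (h : g ∈ G) (hv : v ∈ V) : g * v * g⁻¹ ∈ V := (mem_normalizer_iff.1 (L.norm h) v).1 hv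

omit hp in
theorem card_eq (hv : v ∈ V) (h1 : v ≠ 1) : Nat.card ↥(G ⊓ 𝐂[v]) * (p ^ n - 1) = Nat.card G := by
  let _ : MulAction G X := MulAction.compHom X ((MulAut.conj (G := X)).comp G.subtype)
  have e : MulAction.stabilizer G v = 𝐂[v].subgroupOf G := by
    ext g
    rw [mem_subgroupOf, mem_centralizer_singleton_iff, ← mul_inv_eq_iff_eq_mul]
    rfl
  have e2 : MulAction.orbit G v = (V : Set X) \ {1} := by
    ext u
    refine ⟨?_, fun hu => ?_⟩
    · rintro ⟨g, rfl⟩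
      exact ⟨L.cj g.2 hv, fun h => h1 (conj_eq_one_iff.1 h)⟩
    · obtain ⟨g, hg, e⟩ := L.tr v hv u hu.1 h1 hu.2
      exact ⟨⟨g, hg⟩, e⟩
  rw [inf_comm, ← PGroup.card_inf_mul_relIndex 𝐂[v] G, relIndex, ← e, MulAction.index_stabilizer, e2,
    Set.ncard_diff_singleton_of_mem (by exact V.one_mem), ← L.card]
  rfl

theorem dvd : p ^ n - 1 ∣ Nat.card G := by
  obtain ⟨⟨v, hv⟩, h1⟩ := ne_bot_iff_exists_ne_one.1 L.ne_bot
  exact ⟨_, by rw [← L.card_eq hv fun e => h1 (Subtype.ext e), mul_comm]⟩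

omit [Finite X] hp in
theorem lin (hs : Group.IsSolvable G) : LinSet p n V G := by
  refine ⟨L.elem, L.card, L.pos, L.norm, L.faith, hs, fun W hW hn => ?_⟩
  refine or_iff_not_imp_left.2 fun h0 => hW.antisymm fun x hx => ?_
  obtain ⟨⟨w, hw⟩, hw1⟩ := ne_bot_iff_exists_ne_one.1 h0
  by_cases hx1 : x = 1
  · exact hx1 ▸ one_mem _
  obtain ⟨h, hh, rfl⟩ := L.tr w (hW hw) x hx (fun e => hw1 (Subtype.ext e)) hx1
  exact (mem_normalizer_iff.1 (hn hh) w).1 hw

omit hp in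
/-- Abelian normal subgroups are semiregular. -/
theorem sreg (hA : A ≤ G) (hn : G ≤ 𝐍(A)) (hc : IsMulCommutative A) : ∀ a ∈ A, a ≠ 1 → V ⊓ 𝐂[a] = ⊥ := by
  refine Frobenius.fpf_symm fun v hv h1 => ?_
  have hV := L.elem.1
  have le : ∀ v ∈ V, ∀ w ∈ V, v ≠ 1 → w ≠ 1 → Nat.card ↥(A ⊓ 𝐂[v]) ≤ Nat.card ↥(A ⊓ 𝐂[w]) := by
    intro v hv w hw h1 h2
    obtain ⟨g, hg, rfl⟩ := L.tr v hv w hw h1 h2
    refine Nat.card_le_card_of_injective (fun a => ⟨g * a * g⁻¹, (mem_normalizer_iff.1 (hn hg) a).1 a.2.1,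
      mem_centralizer_singleton_iff.2 ?_⟩) fun a b h => Subtype.ext (by simpa using congrArg Subtype.val h)
    have := mem_centralizer_singleton_iff.1 a.2.2
    calc _ = g * (a * v) * g⁻¹ := by group
      _ = _ := by rw [this]; group
  have eq : ∀ v ∈ V, ∀ w ∈ V, v ≠ 1 → w ≠ 1 → A ⊓ 𝐂[v] ≤ A ⊓ 𝐂[w] → A ⊓ 𝐂[v] = A ⊓ 𝐂[w] :=
    fun v hv w hw h1 h2 h => eq_of_le_of_card_ge h (le w hw v hv h2 h1)
  refine L.eq_bot (inf_le_left.trans hA) fun a ha w hw => by_contra fun h => ?_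
  have ha2 := mem_centralizer_singleton_iff.1 ha.2
  have w1 : w ≠ 1 := by rintro rfl; simp at h
  have ne : A ⊓ 𝐂[v] ≠ A ⊓ 𝐂[w] := fun e => h (mem_centralizer_singleton_iff.1 (e ▸ ha).2).symm
  have u1 : v * w ≠ 1 := fun e => h (by
    rw [← eq_inv_of_mul_eq_one_right e |>.symm]
    exact ((Commute.inv_right_iff.2 ha2).eq).symm)
  have : A ⊓ 𝐂[v * w] ≤ A ⊓ 𝐂[v] ⊓ (A ⊓ 𝐂[w]) := fun b hb => by
    have hb2 := mem_centralizer_singleton_iff.1 hb.2
    have key : ∀ u, ∀ s ∈ A ⊓ 𝐂[u], Commute s (b * u * b⁻¹) := fun u s hs =>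
      have h1 : Commute s b := setLike_mul_comm hs.1 hb.1
      (h1.mul_right (mem_centralizer_singleton_iff.1 hs.2)).mul_right h1.inv_right
    have e : v⁻¹ * (b * v * b⁻¹) = w * (b * w * b⁻¹)⁻¹ := by
      calc _ = v⁻¹ * (b * (v * w) * b⁻¹) * (b * w * b⁻¹)⁻¹ := by group
        _ = _ := by rw [hb2]; group
    have z1 : v⁻¹ * (b * v * b⁻¹) = 1 := by
      by_contra z1
      have hz := V.mul_mem (V.inv_mem hv) (L.cj (hA hb.1) hv)
      refine ne ((eq v hv _ hz h1 z1 fun s hs => ⟨hs.1, mem_centralizer_singleton_iff.2 ?_⟩).trans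
        (eq w hw _ hz w1 z1 fun s hs => ⟨hs.1, mem_centralizer_singleton_iff.2 ?_⟩).symm)
      · exact ((Commute.inv_right (mem_centralizer_singleton_iff.1 hs.2)).mul_right (key v s hs)).eq
      · rw [e]
        exact (Commute.mul_right (mem_centralizer_singleton_iff.1 hs.2) (key w s hs).inv_right).eq
    rw [z1, eq_comm, mul_inv_eq_one, eq_mul_inv_iff_mul_eq] at e
    rw [inv_mul_eq_one, eq_mul_inv_iff_mul_eq] at z1
    exact ⟨⟨hb.1, mem_centralizer_singleton_iff.2 z1.symm⟩, hb.1, mem_centralizer_singleton_iff.2 e.symm⟩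
  exact ne ((eq _ (V.mul_mem hv hw) v hv u1 h1 (this.trans inf_le_left)).symm.trans
    (eq _ (V.mul_mem hv hw) w hw u1 w1 (this.trans inf_le_right)))

omit hp in
theorem sreg_dvd (hA : A ≤ G) (hn : G ≤ 𝐍(A)) (hc : IsMulCommutative A) {W : Subgroup X} (hW : W ≤ V)
    (hAW : A ≤ 𝐍(W)) : Nat.card A ∣ Nat.card W - 1 :=
  Frobenius.card_dvd_card_sub_one_of_fpf hAW (Frobenius.fpf_mono hW le_rfl (L.sreg hA hn hc))

theorem card_sub {W : Subgroup X} (hW : W ≤ V) (h0 : W ≠ ⊥) (h1 : W ≠ V) :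
    ∃ i, 0 < i ∧ i < n ∧ Nat.card W = p ^ i := by
  obtain ⟨i, hi, e⟩ := (Nat.dvd_prime_pow hp.out).1 (L.card ▸ card_dvd_of_le hW)
  refine ⟨i, Nat.pos_of_ne_zero ?_, hi.lt_of_ne ?_, e⟩ <;> rintro rfl
  · exact h0 (card_eq_one.1 e)
  · exact h1 (eq_of_le_of_card_ge hW (by rw [e, L.card]))

theorem coord (hA : A ≤ G) (hc : IsMulCommutative A) (hi : Irr V A) :
    ∃ (F : Type) (_ : Field F) (_ : Fintype F) (f ψ : X → F), FieldCoord V A f ψ := by
  obtain ⟨⟨v, hv⟩, h1⟩ := ne_bot_iff_exists_ne_one.1 L.ne_bot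
  obtain ⟨F, _, _, f, ψ, h, -⟩ := exists_fieldCoord L.elem.1 (hA.trans L.norm)
    (by rw [commutator_eq_bot_iff_le_centralizer.2 (le_centralizer_iff_isMulCommutative.2 hc)]
        exact bot_le) hi hv fun e => h1 (Subtype.ext e)
  exact ⟨F, _, inferInstance, f, ψ, h⟩

/-- The centralizer of an irreducible abelian subgroup is abelian. -/
theorem comm_cent (hA : A ≤ G) (hc : IsMulCommutative A) (hi : Irr V A) : IsMulCommutative ↥(G ⊓ 𝐂(A)) := by
  obtain ⟨F, _, _, f, ψ, h⟩ := L.coord hA hc hi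
  have key : ∀ t ∈ G ⊓ 𝐂(A), ∃ c : F, ∀ x ∈ V, f (t * x * t⁻¹) = c * f x := fun t ht => by
    obtain ⟨c, σ, -, h1, h2⟩ := h.exists_semilinear (L.norm ht.1) (centralizer_le_normalizer _ ht.2)
    have : σ = RingHom.id F := RingHom.eq_of_eqOn_set_dense h.gen (by
      rintro _ ⟨u, hu, rfl⟩
      rw [← h2 u hu, ← ht.2 u hu, mul_inv_cancel_right]; rfl)
    exact ⟨c, fun x hx => by rw [h1 x hx, this]; rfl⟩
  refine PGroup.isMulCommutative_iff.2 fun s hs t ht => ?_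
  obtain ⟨c, hc⟩ := key s hs
  obtain ⟨d, hd⟩ := key t ht
  rw [← inv_mul_eq_one]
  refine L.eq_one (G.mul_mem (G.inv_mem (G.mul_mem hs.1 ht.1)) (G.mul_mem ht.1 hs.1)) fun x hx => ?_
  have : s * (t * x * t⁻¹) * s⁻¹ = t * (s * x * s⁻¹) * t⁻¹ :=
    h.inj (L.cj hs.1 (L.cj ht.1 hx)) (L.cj ht.1 (L.cj hs.1 hx))
      (by rw [hc _ (L.cj ht.1 hx), hd _ (L.cj hs.1 hx), hc _ hx, hd _ hx]; ring)
  calc _ = (s * t)⁻¹ * (s * (t * x * t⁻¹) * s⁻¹) * (t * s) := by group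
    _ = _ := by rw [this]; group

/-- The class numbers in the semilinear case. -/
theorem good_bound (hG : Good V G) (hv : v ∈ V) (h1 : v ≠ 1) :
    kk G + Nat.card ↥(G ⊓ 𝐂[v]) ≤ p ^ n ∧ (kk G + Nat.card ↥(G ⊓ 𝐂[v]) = p ^ n →
      IsCyclic G ∨ (p ^ n = 8 ∧ Nat.card G = 21) ∨ (p ^ n = 9 ∧ Nat.card G = 16)) := by
  obtain ⟨A, hA, hn, hc, hi⟩ := hG
  obtain ⟨T, hT⟩ : ∃ T, T = G ⊓ 𝐂(A) := ⟨_, rfl⟩
  have hTG : T ≤ G := hT ▸ inf_le_left
  have hAT : A ≤ T := hT ▸ le_inf hA (le_centralizer_iff_isMulCommutative.2 hc)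
  have hTc : IsMulCommutative T := hT ▸ L.comm_cent hA hc hi
  have hTn : G ≤ 𝐍(T) := hT ▸ Coprime.le_normalizer_inf le_normalizer (Coprime.le_normalizer_centralizer hn)
  obtain ⟨F, _, _, f, ψ, h⟩ := L.coord hTG hTc (Irr.mono hi hAT)
  have := finite_aut F
  have hF : Nat.card F = p ^ n := h.card_eq.trans L.card
  have inj : Function.Injective h.psiHom := (MonoidHom.ker_eq_bot_iff _).1 (by
    rw [h.ker_psiHom, eq_bot_iff]
    exact fun t ht => Subtype.ext (L.eq_one (hTG t.2) ht))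
  have hTq : Nat.card T + 1 ≤ p ^ n := by
    have := Nat.card_le_card_of_injective _ inj
    rw [Nat.card_units, hF] at this
    have := pow_pos hp.out.pos n
    omega
  have hH : Nat.card ↥(G ⊓ 𝐂[v]) ≤ T.relIndex G := by
    have := card_inf_le hTG 𝐂[v]
    rwa [Frobenius.fpf_symm (L.sreg hTG hTn hTc) v hv h1, card_bot, mul_one] at this
  by_cases hm : G ≤ T
  · have e : T = G := le_antisymm hTG hm
    have := (kk_le_card G).trans_eq (congrArg (Nat.card ·) (congrArg (fun H : Subgroup X => (H : Type _)) e.symm))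
    rw [relIndex_eq_one.2 hm] at hH
    exact ⟨by omega, fun _ => .inl (e ▸ isCyclic_of_injective _ inj)⟩
  choose c σ hc0 hσ1 hσ2 using fun g : G => h.exists_semilinear (L.norm g.2) (hTn g.2)
  let θ : G →* (F ≃+* F) := MonoidHom.mk'
    (fun g => RingEquiv.ofBijective (σ g) (Finite.injective_iff_bijective.1 (σ g).injective)) fun a b => by
      have : σ (a * b) = (σ a).comp (σ b) := RingHom.eq_of_eqOn_set_dense h.gen (by
        rintro _ ⟨u, hu, rfl⟩
        rw [← hσ2 _ u hu, RingHom.comp_apply, ← hσ2 _ u hu,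
          ← hσ2 _ _ ((mem_normalizer_iff.1 (hTn b.2) u).1 hu)]
        congr 1
        rw [Subgroup.coe_mul]; group)
      ext x
      exact RingHom.congr_fun this x
  have hθ : ∀ g x, θ g x = σ g x := fun _ _ => rfl
  have fix : ∀ (g : G) (u : T), θ g (ψ u) = ψ u ↔ (u : X) ∈ 𝐂[(g : X)] := fun g u => by
    have hm := (mem_normalizer_iff.1 (hTn g.2) u).1 u.2
    rw [hθ, ← hσ2 g u u.2, mem_centralizer_singleton_iff, eq_comm (a := (u : X) * g), ← mul_inv_eq_iff_eq_mul]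
    exact ⟨fun e => congrArg Subtype.val (inj (a₁ := ⟨_, hm⟩) (a₂ := u) (Units.ext e)), fun e => by rw [e]⟩
  have ker : θ.ker = T.subgroupOf G := by
    ext g
    refine ⟨fun hg => hT.ge ⟨g.2, fun a ha => mem_centralizer_singleton_iff.1 ((fix g ⟨a, hAT ha⟩).1 (by
      rw [MonoidHom.mem_ker.1 hg]; rfl))⟩, fun hg => ?_⟩
    have : σ g = RingHom.id F := RingHom.eq_of_eqOn_set_dense h.gen (by
      rintro _ ⟨u, hu, rfl⟩
      exact (fix g ⟨u, hu⟩).2 (mem_centralizer_singleton_iff.2 (setLike_mul_comm hu hg)))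
    ext x
    exact RingHom.congr_fun this x
  have hr : Nat.card θ.range = T.relIndex G := by rw [← index_ker, ker, relIndex]
  have hmn : T.relIndex G ≤ n := by
    rw [← hr, ← card_ringAut hF]
    exact card_le_card_group _
  have hpm : ¬ p ∣ T.relIndex G := fun e => L.cop (e.trans (relIndex_dvd_card _ _))
  obtain ⟨g₀, hg₀, hg₁⟩ := SetLike.not_le_iff_exists.1 hm
  have : Nonempty {g // g ∈ G ∧ g ∉ T} := ⟨⟨g₀, hg₀, hg₁⟩⟩
  obtain ⟨⟨g, hg, hg'⟩, hmax⟩ := Finite.exists_max fun g : {g // g ∈ G ∧ g ∉ T} => Nat.card ↥(T ⊓ 𝐂[g.1])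
  have hk := kk_abel hTG fun x hx hx' => hmax ⟨x, hx, hx'⟩
  simp only at hk
  have hs : (Nat.card ↥(T ⊓ 𝐂[g]) + 1) ^ orderOf (θ ⟨g, hg⟩) ≤ p ^ n := by
    rw [← hF, card_fixed (zpowers (θ ⟨g, hg⟩)), Nat.card_zpowers]
    refine Nat.pow_le_pow_left ?_ _
    rw [← Finite.card_option]
    refine Nat.card_le_card_of_injective (fun o => o.elim 0 fun u => ⟨ψ u, ?_⟩) ?_
    · rintro ⟨_, k, rfl⟩
      exact MulAction.mem_stabilizer_iff.1 ((MulAction.stabilizer (F ≃+* F) (ψ u)).zpow_mem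
        ((fix ⟨g, hg⟩ ⟨u, u.2.1⟩).2 u.2.2) k)
    · rintro (_ | a) (_ | b) e
      · rfl
      · exact absurd (congrArg Subtype.val e).symm (h.psi_ne_zero b.2.1)
      · exact absurd (congrArg Subtype.val e) (h.psi_ne_zero a.2.1)
      · exact congrArg some (Subtype.ext (congrArg (fun t : T => (t : X))
          (inj (a₁ := ⟨a, a.2.1⟩) (a₂ := ⟨b, b.2.1⟩) (Units.ext (congrArg Subtype.val e)))))
  have hd : 2 ≤ orderOf (θ ⟨g, hg⟩) := by
    have h1 : orderOf (θ ⟨g, hg⟩) ≠ 1 := fun e => hg' (ker.le (orderOf_eq_one_iff.1 e))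
    have := orderOf_pos (θ ⟨g, hg⟩)
    omega
  have m2 : 2 ≤ T.relIndex G := by
    have h1 : T.relIndex G ≠ 1 := fun e => hm (relIndex_eq_one.1 e)
    have : T.relIndex G ≠ 0 := index_ne_zero_of_finite
    omega
  have num := num_semi hp.out m2 hmn hpm hd (fun e => hpm (e.trans (hr ▸ orderOf_dvd_natCard _ ⟨_, rfl⟩))) hs
  have hG := L.card_eq hv h1
  generalize T.relIndex G = m at *
  generalize Nat.card ↥(T ⊓ 𝐂[g]) = c at *
  generalize Nat.card ↥(G ⊓ 𝐂[v]) = a at *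
  generalize kk G = k at *
  obtain ⟨m, rfl⟩ := Nat.exists_eq_add_of_le' m2
  rcases num with num | ⟨num, ⟨e, e'⟩ | ⟨e, e'⟩⟩
  · have : k + a < p ^ n := by
      refine Nat.lt_of_mul_lt_mul_left (a := m + 2) ?_
      nlinarith
    omega
  · rw [e] at num hTq hG ⊢
    obtain rfl : m = 1 := by omega
    exact ⟨by omega, fun h => .inr (by omega)⟩
  · rw [e] at num hTq hG ⊢
    obtain rfl : m = 0 := by omega
    exact ⟨by omega, fun h => .inr (by omega)⟩

end St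

end Cfsg.Lib.KT
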