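import Cfsg.Agent.Lib.KT.St
import Cfsg.Agent.Lib.PSL2.Dickson

/-!
# Coprime linear groups of degree two (helper29)
-/

set_option autoImplicit false

namespace Cfsg.Lib.KT

open Subgroup Cfsg.Lib.BG Cfsg.Lib.Perm Cfsg.Lib.PSL2 Matrix
open scoped MatrixGroups

variable {X : Type*} [Group X] [Finite X]

theorem two {C : Subgroup X} {F : Type*} [Field F] [Finite F] {p : ℕ} [hp : Fact p.Prime] [CharP F p]
    (φ : C →* Matrix (Fin 2) (Fin 2) F) (hφ : Function.Injective φ) (hc : ¬ p ∣ Nat.card C) :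
    (∃ D ≤ C, D.relIndex C ∣ 2 ∧ IsMulCommutative D) ∨ ∃ Z ≤ C, Z ≤ 𝐂(C) ∧ Nat.card Z ≤ Nat.card F - 1 ∧
      kk C ≤ Nat.card Z * 5 ∧ (Z.relIndex C = 12 ∨ Z.relIndex C = 24 ∨ Z.relIndex C = 60) := by
  let R : C →* GL (Fin 2) F := φ.toHomUnits
  have hR : Function.Injective R := fun a b h => hφ (congrArg Units.val h)
  let π : C →* PGL(2, F) := ProjGenLinGroup.mk.comp R
  have hk : ∀ c, c ∈ π.ker ↔ R c ∈ center (GL (Fin 2) F) := fun c => ProjGenLinGroup.mk_eq_one
  have hZ : π.ker ≤ center C := fun c hc =>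
    mem_center_iff.2 fun a => hR (by rw [map_mul, map_mul, mem_center_iff.1 ((hk c).1 hc)])
  have hq : Nat.card π.ker ≤ Nat.card F - 1 := by
    rw [← Nat.card_units]
    refine (Nat.card_le_card_of_injective (fun c : π.ker => (⟨R c, (hk c).1 c.2⟩ : center (GL (Fin 2) F)))
      fun a b h => Subtype.ext (hR (congrArg Subtype.val h))).trans ?_
    rw [GeneralLinearGroup.center_eq_range_scalar]
    exact Nat.card_le_card_of_surjective _ (MonoidHom.rangeRestrict_surjective _)
  have rel : ∀ D : Subgroup C, (D.map C.subtype).relIndex C = D.index := fun D => by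
    rw [relIndex, subgroupOf, comap_map_eq_self_of_injective C.subtype_injective]
  have key : ∀ {Q : Type} [Group Q] [Finite Q], Nonempty (π.range ≃* Q) → kk Q ≤ 5 →
      (Nat.card Q = 12 ∨ Nat.card Q = 24 ∨ Nat.card Q = 60) → ∃ Z ≤ C, Z ≤ 𝐂(C) ∧ Nat.card Z ≤ Nat.card F - 1 ∧
      kk C ≤ Nat.card Z * 5 ∧ (Z.relIndex C = 12 ∨ Z.relIndex C = 24 ∨ Z.relIndex C = 60) := by
    intro Q _ _ ⟨e⟩ h1 h2
    refine ⟨π.ker.map C.subtype, map_subtype_le _, ?_, by rwa [card_subtype], ?_, ?_⟩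
    · rintro _ ⟨c, hc, rfl⟩ a ha
      exact congrArg Subtype.val (mem_center_iff.1 (hZ hc) ⟨a, ha⟩)
    · have := kk_le_ker (f := e.toMonoidHom.comp π.rangeRestrict) (e.surjective.comp π.rangeRestrict_surjective)
      rw [MonoidHom.ker_comp_of_injective _ _ e.injective, MonoidHom.ker_rangeRestrict] at this
      rw [card_subtype]
      exact this.trans (Nat.mul_le_mul_left _ h1)
    · rwa [rel, index_ker, Nat.card_congr e.toEquiv]
  rcases dickson_pgl_coprime (AlgebraicClosure F) p π.range ((hp.out.coprime_iff_not_dvd.2 fun h =>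
    hc (h.trans (card_range_dvd π))).symm) with ⟨a, b, m, h1, h2⟩ | h | h | h
  · refine .inl ⟨((torus F a b).comap π).map C.subtype, map_subtype_le _, ?_, ?_⟩
    · rw [rel, index_dvd_two_iff]
      by_cases h3 : ∀ c, π c ∈ torus F a b
      · exact ⟨1, fun c => .inr (h3 c)⟩
      obtain ⟨s, hs⟩ := not_forall.1 h3
      refine ⟨s, fun c => or_iff_not_imp_right.2 fun hc => ?_⟩
      rw [mem_comap, map_mul, mem_torus, map_mul]
      exact mul_mem_fix2_of_swap (swap_of_mem_pairStab (h2 ⟨c, rfl⟩) hc) (swap_of_mem_pairStab (h2 ⟨s, rfl⟩) hs)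
    · have := isCyclic_torus (F := F) h1.ne
      have := (π.subgroupComap (torus F a b)).isMulCommutative_of_isCyclic_of_ker_le_center fun c hc =>
        mem_center_iff.2 fun d => Subtype.ext (mem_center_iff.1 (hZ (congrArg Subtype.val hc)) d)
      infer_instance
  · exact .inr (key h (by rw [kk_A4]; norm_num) (.inl (alternatingGroup.card_of_card_eq_four (by simp))))
  · exact .inr (key h kk_S4.le (.inr (.inl (by rw [Nat.card_perm]; simp [Nat.factorial]))))
  · exact .inr (key h kk_A5.le (.inr (.inr (by rw [nat_card_alternatingGroup]; simp [Nat.factorial]))))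

namespace St
variable {p n : ℕ} [hp : Fact p.Prime] {V G A : Subgroup X} (L : St p n V G) {v x : X}
include L

/-- The centralizer of an element of large order in an irreducible abelian subgroup. -/
theorem two_cent (hA : A ≤ G) (hc : IsMulCommutative A) (hi : Irr V A) (hx : x ∈ A)
    (ho : p ^ n < (orderOf x + 1) ^ 3) : (∃ D ≤ G ⊓ 𝐂[x], D.relIndex (G ⊓ 𝐂[x]) ∣ 2 ∧ IsMulCommutative D) ∨
      ∃ Z ≤ G ⊓ 𝐂[x], Z ≤ 𝐂(G ⊓ 𝐂[x]) ∧ (Z.relIndex (G ⊓ 𝐂[x]) = 12 ∨ Z.relIndex (G ⊓ 𝐂[x]) = 24 ∨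
        Z.relIndex (G ⊓ 𝐂[x]) = 60) := by
  obtain ⟨K, _, _, f, ψ, h⟩ := L.coord hA hc hi
  have hK : Nat.card K = p ^ n := h.card_eq.trans L.card
  have : CharP K p := charP_of_card_eq_prime_pow (Nat.card_eq_fintype_card (α := K) ▸ hK)
  choose g hg hfg using h.surj
  have hgf : ∀ v ∈ V, g (f v) = v := fun v hv => h.inj (hg _) hv (hfg _)
  set C := G ⊓ 𝐂[x] with hC
  let l : C → K →+ K := fun c => AddMonoidHom.mk' (fun r => f (c * g r * (c : X)⁻¹)) fun r s => by
    rw [← h.add _ (L.cj c.2.1 (hg r)) _ (L.cj c.2.1 (hg s)), ← hfg r, ← hfg s, ← h.add _ (hg r) _ (hg s),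
      hgf _ (V.mul_mem (hg r) (hg s)), hfg, hfg]
    congr 1; group
  have hl : ∀ c r, l c r = f (c * g r * (c : X)⁻¹) := fun _ _ => rfl
  let E : Subfield K :=
    { carrier := {s | ∀ c r, l c (s * r) = s * l c r}
      mul_mem' := fun {s t} hs ht c r => by rw [mul_assoc, hs, ht, mul_assoc]
      one_mem' := fun c r => by rw [one_mul, one_mul]
      add_mem' := fun {s t} hs ht c r => by rw [add_mul, map_add, hs, ht, add_mul]
      zero_mem' := fun c r => by rw [zero_mul, map_zero, zero_mul]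
      neg_mem' := fun {s} hs c r => by rw [neg_mul, map_neg, hs, neg_mul]
      inv_mem' := fun s hs c r => by
        rcases eq_or_ne s 0 with rfl | h0
        · rw [_root_.inv_zero, zero_mul, map_zero, zero_mul]
        rw [eq_inv_mul_iff_mul_eq₀ h0, ← hs, mul_inv_cancel_left₀ h0] }
  have hξ : ψ x ∈ E := fun c r => by
    have e := mem_centralizer_singleton_iff.1 c.2.2
    rw [hl, hl, ← h.conj x hx _ (L.cj c.2.1 (hg r)), ← hfg r, ← h.conj x hx _ (hg r),
      hgf _ (L.cj (hA hx) (hg r)), hfg]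
    congr 1
    calc _ = c * x * g r * (c * x)⁻¹ := by group
      _ = _ := by rw [e]; group
  have hE : orderOf x + 1 ≤ Nat.card E := by
    have h0 : (⟨ψ x, hξ⟩ : E) ≠ 0 := fun e => h.psi_ne_zero hx (congrArg Subtype.val e)
    have h1 : orderOf x ∣ orderOf (Units.mk0 _ h0) := by
      refine orderOf_dvd_of_pow_eq_one (L.eq_one (G.pow_mem (hA hx) _) ((h.psi_eq_one_iff (A.pow_mem hx _)).1 ?_))
      rw [h.psi_pow hx]
      exact congrArg (fun u : Eˣ => ((u : E) : K)) (pow_orderOf_eq_one (Units.mk0 _ h0))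
    have h2 := Nat.le_of_dvd Nat.card_pos (h1.trans (orderOf_dvd_natCard _))
    rw [Nat.card_units] at h2
    have := Nat.card_pos (α := E)
    omega
  let ρ : C →* Module.End E K :=
    { toFun := fun c => ⟨⟨l c, map_add (l c)⟩, fun s r => s.2 c r⟩
      map_one' := LinearMap.ext fun r => by
        change f (1 * g r * 1⁻¹) = r
        rw [one_mul, inv_one, mul_one, hfg]
      map_mul' := fun a b => LinearMap.ext fun r => by
        change f (a * b * g r * (a * b : X)⁻¹) = f (a * g (f (b * g r * (b : X)⁻¹)) * (a : X)⁻¹)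
        rw [hgf _ (L.cj b.2.1 (hg r))]
        congr 1; group }
  have hρ : Function.Injective ρ := (injective_iff_map_eq_one ρ).2 fun c hc =>
    Subtype.ext (L.eq_one c.2.1 fun v hv => by
      have : f (c * g (f v) * (c : X)⁻¹) = f v := LinearMap.congr_fun hc (f v)
      rw [hgf v hv] at this
      exact (mul_inv_eq_iff_eq_mul.1 (h.inj (L.cj c.2.1 hv) hv this)).symm)
  have hd := Module.natCard_eq_pow_finrank (K := E) (V := K)
  have d3 : Module.finrank E K < 3 := by
    by_contra h3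
    have := (Nat.pow_le_pow_left hE 3).trans (Nat.pow_le_pow_right Nat.card_pos (not_lt.1 h3))
    omega
  have d0 := Module.finrank_pos (R := E) (M := K)
  by_cases d1 : Module.finrank E K = 1
  · refine .inl ⟨C, le_rfl, by simp, ⟨⟨fun a b => hρ ?_⟩⟩⟩
    let e := LinearMap.toMatrixAlgEquiv (Module.finBasisOfFinrankEq E K d1)
    refine e.injective ?_
    rw [map_mul, map_mul, map_mul, map_mul]
    generalize e (ρ a) = M
    generalize e (ρ b) = N
    ext i j
    rw [Subsingleton.elim j 0, Subsingleton.elim i 0, mul_apply, mul_apply, Fin.sum_univ_one, Fin.sum_univ_one,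
      mul_comm]
  let e := LinearMap.toMatrixAlgEquiv (Module.finBasisOfFinrankEq E K (show _ = 2 by omega))
  exact (two (p := p) (e.toAlgHom.toMonoidHom.comp ρ) (e.injective.comp hρ)
    fun h => L.cop (h.trans (card_dvd_of_le inf_le_left))).imp id
    fun ⟨Z, h1, h2, _, _, h3⟩ => ⟨Z, h1, h2, h3⟩

omit L in
/-- The two-dimensional case. -/
theorem dim_two (L : St p 2 V G) (hv : v ∈ V) (h1 : v ≠ 1) :
    Good V G ∨ kk G + Nat.card ↥(G ⊓ 𝐂[v]) < p ^ 2 := by
  obtain ⟨c⟩ := PLocal.nonempty_elemAbCoord L.elem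
  have hn : c.n = 2 := by
    have : Nat.card V = Nat.card (Fin c.n → ZMod p) :=
      (Nat.card_congr (Equiv.ofBijective (fun u => (⟨c.e u, c.mem u⟩ : V))
        ⟨fun u w h => c.inj (congrArg Subtype.val h), fun x => by
          obtain ⟨u, hu⟩ := (c.mem_iff x).mp x.2
          exact ⟨u, Subtype.ext hu⟩⟩)).symm
    rw [Nat.card_fun, Nat.card_zmod, Nat.card_fin, L.card] at this
    exact (Nat.pow_right_injective hp.out.two_le this).symm
  have h2 := c.rho_eq_one_iff
  obtain ⟨n, e, ρ, _, _, _, _⟩ := c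
  simp only at hn h2
  subst hn
  have hG := L.card_eq hv h1
  have p2 := hp.out.two_le
  obtain ⟨q, rfl⟩ : ∃ q, p = q + 1 := ⟨p - 1, by omega⟩
  have e2 : (q + 1) ^ 2 - 1 = q * (q + 2) := Nat.sub_eq_of_eq_add (by ring)
  have ha := Nat.card_pos (α := ↥(G ⊓ 𝐂[v]))
  rw [e2] at hG
  rcases two (p := q + 1) (ρ.comp (inclusion L.norm)) ((injective_iff_map_eq_one _).2 fun g hg =>
    Subtype.ext (L.eq_one g.2 ((h2 _).1 hg))) L.cop with ⟨D, hD, h3, h4⟩ | ⟨Z, hZ, -, h3, h4, h5⟩
  · have hn : G ≤ 𝐍(D) := by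
      rw [← normal_subgroupOf_iff_le_normalizer hD]
      rcases (Nat.dvd_prime Nat.prime_two).1 h3 with h | h
      · rw [index_eq_one.1 h]; infer_instance
      · exact normal_of_index_eq_two h
    refine .inl ⟨D, hD, hn, h4, fun W hW hn' => by_contra fun h => ?_⟩
    obtain ⟨i, i0, i2, e⟩ := L.card_sub hW (not_or.1 h).1 (not_or.1 h).2
    obtain rfl : i = 1 := by omega
    have h5 := L.sreg_dvd hD hn h4 hW hn'
    rw [e, pow_one, Nat.add_sub_cancel] at h5
    have h6 := Nat.le_of_dvd (by omega) h5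
    have h7 := Nat.le_of_dvd two_pos h3
    have h8 := PGroup.card_mul_relIndex hD
    nlinarith [Nat.mul_le_mul h6 h7]
  · right
    have h8 := PGroup.card_mul_relIndex hZ
    rw [Nat.card_zmod, Nat.add_sub_cancel] at h3
    have h9 : ¬ q + 1 ∣ Z.relIndex G := fun h => L.cop (h.trans (relIndex_dvd_card _ _))
    have h10 : Nat.card ↥(G ⊓ 𝐂[v]) * (q + 2) ≤ Z.relIndex G := by
      refine Nat.le_of_mul_le_mul_left ?_ (show 0 < q by omega)
      nlinarith [Nat.mul_le_mul_right (Z.relIndex G) h3]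
    generalize Nat.card ↥(G ⊓ 𝐂[v]) = a at *
    generalize Z.relIndex G = m at *
    by_cases q6 : 6 ≤ q
    · have : a ≤ 7 := by
        by_contra h
        have := Nat.mul_le_mul (show 8 ≤ a by omega) (show 8 ≤ q + 2 by omega)
        omega
      nlinarith
    have := hp.out
    obtain rfl | rfl | rfl | rfl | rfl : q = 1 ∨ q = 2 ∨ q = 3 ∨ q = 4 ∨ q = 5 := by omega
    all_goals first | omega | norm_num at this

end St

end Cfsg.Lib.KT
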